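import Cfsg.Agent.H801.Sims.Cent

/-!
# S3694, task T7: the defining characteristic, linear case
-/

set_option autoImplicit false
set_option linter.unusedVariables false

namespace Cfsg.Agent.H801.Sims

open Matrix Cfsg.Agent.H607.TW Subgroup

universe u

section

variable {G : Type u} [Group G] {N A C : Subgroup G} {r : ℕ}
  {F : Type} [Field F] {n : ℕ} {K L J Q : Submodule F (Matrix (Fin n) (Fin n) F)}
  {τ τ' : Matrix (Fin n) (Fin n) F ≃+ Matrix (Fin n) (Fin n) F}
  {π : Matrix.SpecialLinearGroup (Fin n) F →* G}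

/-- the matrix `[[0, 1], [-1, 0]]` -/
def Jm (F : Type) [Field F] : Matrix.GeneralLinearGroup (Fin 2) F where
  val := !![0, 1; -1, 0]
  inv := !![0, -1; 1, 0]
  val_inv := by ext i j; fin_cases i <;> fin_cases j <;> simp [Matrix.mul_apply, Fin.sum_univ_two]
  inv_val := by ext i j; fin_cases i <;> fin_cases j <;> simp [Matrix.mul_apply, Fin.sum_univ_two]

/-- for `n = 2` a lift of the second kind can be replaced by one of the first kind -/
theorem conv_two {π : Matrix.SpecialLinearGroup (Fin 2) F →* G} {x : G} {B : Matrix.GeneralLinearGroup (Fin 2) F} {σ : F ≃+* F}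
    (hi : ∀ s : Matrix.SpecialLinearGroup (Fin 2) F, ∃ s' : Matrix.SpecialLinearGroup (Fin 2) F,
      mt (iSL 2 F) s' = tauM B σ (mt (iSL 2 F) s) ∧ (π s')⁻¹ = x * π s * x⁻¹) :
    ∀ s : Matrix.SpecialLinearGroup (Fin 2) F, ∃ s' : Matrix.SpecialLinearGroup (Fin 2) F,
      mt (iSL 2 F) s' = tauP (B * Jm F) σ (mt (iSL 2 F) s) ∧ π s' = x * π s * x⁻¹ := by
  intro s
  obtain ⟨s', h1, h2⟩ := hi s⁻¹
  refine ⟨s', ?_, ?_⟩
  · rw [h1, tauM_apply, tauP_apply, mt_SL, mt_SL, _root_.mul_inv_rev, Units.val_mul, Units.val_mul]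
    have h3 : (((s⁻¹ : Matrix.SpecialLinearGroup (Fin 2) F) : Matrix (Fin 2) (Fin 2) F)ᵀ).map σ =
        ((Jm F : Matrix.GeneralLinearGroup (Fin 2) F) : Matrix (Fin 2) (Fin 2) F) * (s : Matrix (Fin 2) (Fin 2) F).map σ *
          (((Jm F)⁻¹ : Matrix.GeneralLinearGroup (Fin 2) F) : Matrix (Fin 2) (Fin 2) F) := by
      rw [Matrix.SpecialLinearGroup.coe_inv, adjugate_fin_two]
      change _ = !![0, 1; -1, 0] * (s : Matrix (Fin 2) (Fin 2) F).map σ * !![0, -1; 1, 0]
      ext i j
      fin_cases i <;> fin_cases j <;> simp [Matrix.mul_apply, Fin.sum_univ_two, Matrix.vecMul, dotProduct]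
    rw [h3]
    simp only [mul_assoc]
  · have h3 : π s' = (x * π s⁻¹ * x⁻¹)⁻¹ := by rw [← h2, inv_inv]
    rw [h3, map_inv]; group

theorem not_both (hn : 2 ≤ n) (hm : IsMul τ) (ha : IsAnti τ) : False := by
  have hcomm : ∀ a b : Matrix (Fin n) (Fin n) F, a * b = b * a := by
    intro a b
    apply τ.injective
    rw [hm a b, ha b a]
  set a : Fin n := ⟨0, by omega⟩
  set b : Fin n := ⟨1, by omega⟩
  have hab : b ≠ a := by
    intro h
    have := congrArg Fin.val h
    simp [a, b] at this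
  have h1 := hcomm (vecMulVec (Pi.single a 1) (Pi.single b 1)) (vecMulVec (Pi.single b 1) (Pi.single a 1))
  rw [vm_mul_vm, vm_mul_vm, dotProduct_single, dotProduct_single, Pi.single_eq_same, Pi.single_eq_same, mul_one,
    one_smul, one_smul] at h1
  have h2 := congrFun (congrFun h1 a) a
  rw [vecMulVec_apply, vecMulVec_apply, Pi.single_eq_same, Pi.single_eq_of_ne hab.symm, mul_one, zero_mul] at h2
  exact one_ne_zero h2

/-- `C_G(A ∩ N) ≤ N` -/
theorem cent_le [Finite F] (h : Loc N A r) (hr : r ∣ Nat.card F) (hM : Model N (iSL n F) π) (hK : Inn K)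
    (hSt : St K ≤ A.comap π) {x : G} (hx : ∀ y ∈ A ⊓ N, x * y = y * x) : x ∈ N := by
  obtain ⟨B, σ, hi | hi⟩ := hM.lift x
  · rcases hi with ⟨-, hi⟩ | ⟨hm, hi⟩
    · exact cent_P h hr hM hK hSt hx hi
    · exact (not_both hM.two (tauP_mul B σ) hm).elim
  · rcases hi with ⟨hm, hi⟩ | ⟨-, hi⟩
    · exact (not_both hM.two hm (tauM_anti B σ)).elim
    · rcases Nat.lt_or_ge 2 n with hn | hn
      · exact (cent_M hn hM hK hSt hx hi).elim
      · have hn2 : n = 2 := le_antisymm hn hM.two
        subst hn2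
        exact cent_P h hr hM hK hSt hx (conv_two hi)

/-- the structure of `A ∩ N` -/
theorem loc_St [Finite G] [Finite F] (h : Loc N A r) (hr : r ∣ Nat.card F) (hM : Model N (iSL n F) π) {X : Subgroup G}
    (hXp : IsPGroup r ↥X) (hXN : X ≤ N) (hXn : A ≤ normalizer (X : Set G)) (hX1 : X ≠ ⊥) :
    Inn (KK (JJ π X r)) ∧ A.comap π = St (KK (JJ π X r)) := by
  have := h.fact
  have h1 := inn_KK (KK_ne_bot hr hM hXp hXN hX1)
  refine ⟨h1, comap_eq_St h hM h1 fun a ha τ hτ hi => ?_⟩
  rw [img_KK hτ, img_JJ_of_norm hXn ha hτ hi]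

theorem JJ_mul_le {Y : Subgroup G} (hY : Y ≤ A) (hSt : A.comap π ≤ St K) :
    JJ π Y r * K ≤ K * ⊤ ∧ K * JJ π Y r ≤ ⊤ * K := by
  constructor
  · rw [Submodule.mul_le]
    intro x hx k hk
    induction hx using Submodule.span_induction with
    | mem w hw =>
      obtain ⟨s, hs, rfl⟩ := hw
      have h1 := (hSt (show s ∈ A.comap π from hY hs.1) k).2 hk
      have h2 : ((s : Matrix (Fin n) (Fin n) F) - 1) * k = ((s : Matrix (Fin n) (Fin n) F) * k *
          ((s⁻¹ : Matrix.SpecialLinearGroup (Fin n) F) : Matrix (Fin n) (Fin n) F)) * (s : Matrix (Fin n) (Fin n) F) - k := by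
        rw [mul_assoc _ _ (s : Matrix (Fin n) (Fin n) F), sl_inv_mul, mul_one, sub_mul, one_mul]
      rw [h2]
      exact Submodule.sub_mem _ (Submodule.mul_mem_mul h1 trivial) (le_mul_top K hk)
    | zero => rw [zero_mul]; exact Submodule.zero_mem _
    | add a b _ _ ha hb => rw [add_mul]; exact Submodule.add_mem _ ha hb
    | smul c a _ ha => rw [smul_mul_assoc]; exact Submodule.smul_mem _ c ha
  · rw [Submodule.mul_le]
    intro k hk x hx
    induction hx using Submodule.span_induction with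
    | mem w hw =>
      obtain ⟨s, hs, rfl⟩ := hw
      have h1 := ((St K).inv_mem (hSt (show s ∈ A.comap π from hY hs.1)) k).2 hk
      rw [inv_inv] at h1
      have h2 : k * ((s : Matrix (Fin n) (Fin n) F) - 1) = (s : Matrix (Fin n) (Fin n) F) *
          (((s⁻¹ : Matrix.SpecialLinearGroup (Fin n) F) : Matrix (Fin n) (Fin n) F) * k * (s : Matrix (Fin n) (Fin n) F)) - k := by
        rw [mul_assoc _ k, ← mul_assoc, sl_mul_inv, one_mul, mul_sub, mul_one]
      rw [h2]
      exact Submodule.sub_mem _ (Submodule.mul_mem_mul trivial h1) (le_top_mul K hk)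
    | zero => rw [mul_zero]; exact Submodule.zero_mem _
    | add a b _ _ ha hb => rw [mul_add]; exact Submodule.add_mem _ ha hb
    | smul c a _ ha => rw [mul_smul_comm]; exact Submodule.smul_mem _ c ha

end

variable {G : Type u} [Group G] [Finite G] {N A C A₁ C₁ A₂ C₂ : Subgroup G} {r d : ℕ}
  {F : Type} [Field F] [Fintype F] {n : ℕ}

theorem semi_refl : Semi (AddEquiv.refl (Matrix (Fin n) (Fin n) F)) :=
  ⟨⟨RingEquiv.refl F, fun _ _ => rfl⟩, Or.inl fun _ _ => rfl⟩

theorem ind_refl (π : Matrix.SpecialLinearGroup (Fin n) F →* G) : Ind (iSL n F) π 1 (AddEquiv.refl _) := by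
  left
  refine ⟨fun _ _ => rfl, fun s => ⟨s, rfl, by simp⟩⟩

theorem char_false {π : Matrix.SpecialLinearGroup (Fin n) F →* G} (h : Sit N A C A₁ C₁ A₂ C₂ r d) (hr' : r ∣ Fintype.card F)
    (hM : Model N (iSL n F) π) : False := by
  classical
  have hr : r ∣ Nat.card F := by rwa [Nat.card_eq_fintype_card]
  have hfact := h.locA.fact
  have hN := h.locA.normal
  -- `X = A₂ ∩ N ≠ 1`
  have hX1 : A₂ ⊓ N ≠ ⊥ := by
    intro h0
    have h1 := OO_inf_ne_bot h.locA hr hM h.A_ne_bot
    obtain ⟨hK, hSt⟩ := loc_St h.locA hr hM ((isPGroup_OO r A).to_le inf_le_left) inf_le_right h.locA.norm_OO_inf h1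
    apply h.A₂_ne
    rw [eq_bot_iff, ← h0]
    intro x hx
    refine mem_inf.2 ⟨hx, cent_le h.locA hr hM hK hSt.ge fun y hy => ?_⟩
    have h2 : x * y * x⁻¹ * y⁻¹ ∈ A₂ ⊓ N := by
      refine mem_inf.2 ⟨?_, N.mul_mem (hN.conj_mem _ hy.2 x) (N.inv_mem hy.2)⟩
      have h3 : y * x⁻¹ * y⁻¹ ∈ A₂ := conj_mem_of_norm h.A₂_norm hy.1 (A₂.inv_mem hx)
      have := A₂.mul_mem hx h3
      simpa [mul_assoc] using this
    rw [h0, mem_bot] at h2
    have h3 := mul_inv_eq_one.1 h2
    exact mul_inv_eq_iff_eq_mul.1 h3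
  set X := A₂ ⊓ N with hX
  have hXp : IsPGroup r ↥X := (isPGroup_OO r A).to_le (inf_le_left.trans h.A₂_OO_A)
  have hXn : A ≤ normalizer (X : Set G) := le_normalizer_inf' h.A₂_norm (le_normalizer_of_normal N hN)
  obtain ⟨hKX, hStX⟩ := loc_St h.locA hr hM hXp inf_le_right hXn hX1
  set Q := OO r C ⊓ N with hQ
  have hXQ : X ≤ Q := inf_le_inf_right N h.A₂_OO
  have hQ1 : Q ≠ ⊥ := fun h0 => hX1 (le_bot_iff.1 (h0 ▸ hXQ))
  have hQn : C ≤ normalizer (Q : Set G) := h.locC.norm_OO_inf
  obtain ⟨hKQ, hStQ⟩ := loc_St h.locC hr hM ((isPGroup_OO r C).to_le inf_le_left) inf_le_right hQn hQ1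
  have hJ : JJ π X r ≤ JJ π Q r := JJ_mono hXQ
  -- it is enough that the ideals agree
  have hfin : KK (JJ π X r) = KK (JJ π Q r) → False := by
    intro he
    have h1 : A.comap π = C.comap π := by rw [hStX, hStQ, he]
    apply h.false_of_inf_eq (fun h0 => hX1 (le_bot_iff.1 (h0 ▸ inf_le_inf_right N h.A₂_le_A)))
    ext y
    constructor
    · rintro ⟨hyA, hyN⟩
      have hy' : y ∈ π.range := by rw [hM.range]; exact hyN
      obtain ⟨s, rfl⟩ := hy'
      have : s ∈ A.comap π := hyA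
      rw [h1] at this
      exact ⟨this, hyN⟩
    · rintro ⟨hyA, hyN⟩
      have hy' : y ∈ π.range := by rw [hM.range]; exact hyN
      obtain ⟨s, rfl⟩ := hy'
      have : s ∈ C.comap π := hyA
      rw [← h1] at this
      exact ⟨this, hyN⟩
  -- the cardinalities agree
  obtain ⟨g, hg⟩ := h.conj
  obtain ⟨τg, hτg, hig⟩ := exists_lift hM g
  have hcard : Nat.card ↥(KK (JJ π Q r)) = Nat.card ↥(KK (JJ π X r)) := by
    have h1 : C ≤ normalizer (X.map (MulAut.conj g).toMonoidHom : Set G) := by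
      rw [hg]
      apply le_normalizer_of_conj
      rintro _ ⟨a, ha, rfl⟩ _ ⟨x, hx, rfl⟩
      refine ⟨a * x * a⁻¹, conj_mem_of_norm hXn ha hx, ?_⟩
      simp [mul_assoc]
    have h2 : X.map (MulAut.conj g).toMonoidHom ≤ N := by
      rintro _ ⟨x, hx, rfl⟩
      exact hN.conj_mem x (inf_le_right (a := A₂) hx) g
    have h3 : X.map (MulAut.conj g).toMonoidHom ≠ ⊥ := by
      intro h0
      exact hX1 ((Subgroup.map_eq_bot_iff_of_injective X (MulAut.conj g).injective).1 h0)
    obtain ⟨hK3, hSt3⟩ := loc_St h.locC hr hM (hXp.map _) h2 h1 h3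
    have h4 := hKQ.uniq hK3 (by rw [← hStQ, ← hSt3])
    rw [h4, ← img_JJ hτg hig, ← img_KK hτg, card_img hτg]
  by_cases hb : ∃ a ∈ A, ∃ τ : Matrix (Fin n) (Fin n) F ≃+ Matrix (Fin n) (Fin n) F, Semi τ ∧ Ind (iSL n F) π a τ ∧ IsAnti τ
  · obtain ⟨a₀, ha₀, τ₀, hτ₀, hi₀, hanti₀⟩ := hb
    have hstJ : St (KK (JJ π X r)) ≤ St (JJ π X r) := by
      rw [← hStX]
      exact le_St fun a ha τ hτ hi => img_JJ_of_norm hXn ha hτ hi
    rcases comparable hKX.ne hstJ with hcmp | hcmp
    · exact hfin (eq_of_card (KK_le_of_An_le hcmp hJ) hcard).symm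
    · -- `JJ X = KK (JJ X)`
      have hJK := le_KK hcmp
      have hKJ := hKX.le_of_St (JJ_ne_bot hM hXp inf_le_right hX1) hJK hstJ
      have heq : KK (JJ π X r) = JJ π X r := le_antisymm hKJ hJK
      set K := KK (JJ π X r) with hKdef
      have hinvK : ∀ a ∈ A, ∀ τ, Semi τ → Ind (iSL n F) π a τ → img τ K = K := fun a ha τ hτ hi => by
        rw [heq, img_JJ_of_norm hXn ha hτ hi]
      have hK0 : img τ₀ K = K := hinvK a₀ ha₀ τ₀ hτ₀ hi₀
      have hcc : Nat.card ↥(K * (⊤ : Submodule F (Matrix (Fin n) (Fin n) F))) =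
          Nat.card ↥((⊤ : Submodule F (Matrix (Fin n) (Fin n) F)) * K) := by
        rw [← card_img hτ₀ (K := K * ⊤), img_mul' hτ₀ hanti₀, img_top hτ₀, hK0]
      have claim : ∀ c ∈ C, ∀ τ, Semi τ → Ind (iSL n F) π c τ → img τ K * K = ⊥ ∧ K * img τ K = ⊥ := by
        intro c hc τ hτ hi
        have hY : X.map (MulAut.conj c).toMonoidHom ≤ A := by
          rintro _ ⟨x, hx, rfl⟩
          exact h.C₁_le_A (conj_mem_of_norm h.C₁_norm hc (h.A₂_le_C₁ (inf_le_left (a := A₂) hx)))
        have hL : img τ K = JJ π (X.map (MulAut.conj c).toMonoidHom) r := by rw [heq, img_JJ hτ hi]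
        obtain ⟨m1, m2⟩ := JJ_mul_le (r := r) (π := π) (K := K) hY hStX.le
        apply mul_eq_bot hKX (img_inn hτ hKX)
        · rw [hL]; exact m1
        · rw [hL]; exact m2
        · rcases hτ.mul with hm | hm
          · rw [← card_img hτ (K := K * ⊤), img_mul hτ hm, img_top hτ]
          · rw [hcc, ← card_img hτ (K := ⊤ * K), img_mul' hτ hm, img_top hτ]
        · rcases hτ.mul with hm | hm
          · rw [← card_img hτ (K := ⊤ * K), img_mul hτ hm, img_top hτ]
          · rw [← hcc, ← card_img hτ (K := K * ⊤), img_mul' hτ hm, img_top hτ]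
      -- the sum of the conjugates
      set S : Set (Matrix (Fin n) (Fin n) F) :=
        {x | ∃ c ∈ C, ∃ τ : Matrix (Fin n) (Fin n) F ≃+ Matrix (Fin n) (Fin n) F, Semi τ ∧ Ind (iSL n F) π c τ ∧ ∃ y ∈ K, x = τ y}
        with hS
      set L := Submodule.span F S with hLdef
      have hKL : K ≤ L := fun x hx =>
        Submodule.subset_span ⟨1, C.one_mem, AddEquiv.refl _, semi_refl, ind_refl π, x, hx, rfl⟩
      have hLL : L * L = ⊥ := by
        rw [eq_bot_iff, Submodule.mul_le]
        intro x hx y hy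
        rw [Submodule.mem_bot]
        induction hx using Submodule.span_induction with
        | mem x hx =>
          induction hy using Submodule.span_induction with
          | mem y hy =>
            obtain ⟨c, hc, τ, hτ, hi, a, ha, rfl⟩ := hx
            obtain ⟨c', hc', τ', hτ', hi', b, hb, rfl⟩ := hy
            have h1 := ind_comp hi' (ind_symm hi)
            obtain ⟨z1, z2⟩ := claim _ (C.mul_mem (C.inv_mem hc) hc') _ (hτ'.trans hτ.symm) h1
            have hmem : (τ'.trans τ.symm) b ∈ img (τ'.trans τ.symm) K := (mem_img' (hτ'.trans hτ.symm)).2 hb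
            have h2 : τ' b = τ ((τ'.trans τ.symm) b) := by
              rw [AddEquiv.trans_apply, AddEquiv.apply_symm_apply]
            rw [h2]
            rcases hτ.mul with hm | hm
            · rw [← hm]
              have := Submodule.mul_mem_mul ha hmem
              rw [z2, Submodule.mem_bot] at this
              rw [this, map_zero]
            · rw [← hm]
              have := Submodule.mul_mem_mul hmem ha
              rw [z1, Submodule.mem_bot] at this
              rw [this, map_zero]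
          | zero => rw [mul_zero]
          | add a b _ _ ha hb => rw [mul_add, ha, hb, add_zero]
          | smul c a _ ha => rw [mul_smul_comm, ha, smul_zero]
        | zero => rw [zero_mul]
        | add a b _ _ ha hb => rw [add_mul, ha, hb, add_zero]
        | smul c a _ ha => rw [smul_mul_assoc, ha, smul_zero]
      have hLinv : ∀ c ∈ C, ∀ τ, Semi τ → Ind (iSL n F) π c τ → img τ L = L := by
        intro c hc τ hτ hi
        apply eq_of_card _ (card_img hτ)
        rw [hLdef, img_span hτ]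
        apply Submodule.span_mono
        rintro _ ⟨_, ⟨c', hc', τ', hτ', hi', y, hy, rfl⟩, rfl⟩
        exact ⟨c * c', C.mul_mem hc hc', τ'.trans τ, hτ'.trans hτ, ind_comp hi' hi, y, hy, rfl⟩
      obtain ⟨hM1, hM2⟩ := inn_QTQ hLL hKX hKL
      have hStM := comap_eq_St h.locC hM hM1 fun c hc τ hτ hi => by
        rcases hτ.mul with hm | hm
        · rw [img_mul hτ hm, img_mul hτ hm, img_top hτ, hLinv c hc τ hτ hi]
        · rw [img_mul' hτ hm, img_mul' hτ hm, img_top hτ, hLinv c hc τ hτ hi, mul_assoc]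
      have h5 := hKQ.uniq hM1 (by rw [← hStQ, ← hStM])
      rw [← h5] at hM2
      exact hfin (eq_of_card hM2 hcard.symm)
  · -- all lifts are multiplicative
    have hmul : ∀ a ∈ A, ∀ τ : Matrix (Fin n) (Fin n) F ≃+ Matrix (Fin n) (Fin n) F, Semi τ → Ind (iSL n F) π a τ → IsMul τ := by
      intro a ha τ hτ hi
      rcases hτ.mul with hm | hm
      · exact hm
      · exact absurd ⟨a, ha, τ, hτ, hi, hm⟩ hb
    have hmulC : ∀ a ∈ C, ∀ τ : Matrix (Fin n) (Fin n) F ≃+ Matrix (Fin n) (Fin n) F, Semi τ → Ind (iSL n F) π a τ → IsMul τ := by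
      intro c hc τ hτ hi
      rcases hτ.mul with hm | hm
      · exact hm
      · exfalso
        rw [hg] at hc
        obtain ⟨a, ha, rfl⟩ := hc
        have h1 := ind_comp (ind_comp hig hi) (ind_symm hig)
        have h2 : g⁻¹ * ((MulAut.conj g).toMonoidHom a * g) = a := by simp [mul_assoc]
        rw [h2] at h1
        apply hb
        refine ⟨a, ha, _, (hτg.trans hτ).trans hτg.symm, h1, fun x y => ?_⟩
        simp only [AddEquiv.trans_apply]
        rcases hτg.mul with hgm | hgm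
        · apply τg.injective
          rw [hgm, hm, hgm]
          simp only [AddEquiv.apply_symm_apply]
        · apply τg.injective
          rw [hgm, hm, hgm]
          simp only [AddEquiv.apply_symm_apply]
    have key : ∀ (B Y : Subgroup G), Loc N B r →
        (∀ a ∈ B, ∀ τ : Matrix (Fin n) (Fin n) F ≃+ Matrix (Fin n) (Fin n) F, Semi τ → Ind (iSL n F) π a τ → IsMul τ) →
        B ≤ normalizer (Y : Set G) → Inn (KK (JJ π Y r)) → B.comap π = St (KK (JJ π Y r)) → U (JJ π Y r) = An (JJ π Y r) := by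
      intro B Y hB hBm hYn hKY hStY
      have i1 : Inn (K1 (JJ π Y r)) := inn_K1 fun h0 => hKY.ne (le_bot_iff.1 (h0 ▸ KK_le_K1))
      have i2 : Inn (K2 (JJ π Y r)) := inn_K2 fun h0 => hKY.ne (le_bot_iff.1 (h0 ▸ KK_le_K2))
      have s1 := comap_eq_St hB hM i1 fun a ha τ hτ hi => by
        rw [img_K1 hτ (hBm a ha τ hτ hi), img_JJ_of_norm hYn ha hτ hi]
      have s2 := comap_eq_St hB hM i2 fun a ha τ hτ hi => by
        rw [img_K2 hτ (hBm a ha τ hτ hi), img_JJ_of_norm hYn ha hτ hi]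
      exact U_eq_An hKY.ne (i1.uniq hKY (by rw [← s1, ← hStY])) (i2.uniq hKY (by rw [← s2, ← hStY]))
    exact hfin (KK_eq_of_U_eq_An (key A X h.locA hmul hXn hKX hStX) (key C Q h.locC hmulC hQn hKQ hStQ) hJ)

/-- task T7 -/
theorem char_sl {π : Matrix.SpecialLinearGroup (Fin n) F →* G} (h : Sit N A C A₁ C₁ A₂ C₂ r d) (hr : r ∣ Fintype.card F)
    (hM : Model N (iSL n F) π) : Nat.card A ≤ M d :=
  (char_false h hr hM).elim

end Cfsg.Agent.H801.Sims
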