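import Cfsg.Agent.H801.Sims.Chr

/-!
# `C_G(A ∩ N) ≤ N` and `O_r(A) ∩ N ≠ 1` in characteristic `r`
-/

set_option autoImplicit false
set_option linter.unusedVariables false

namespace Cfsg.Agent.H801.Sims

open Matrix Cfsg.Agent.H607.TW Subgroup

universe u

variable {G : Type u} [Group G] {N A C : Subgroup G} {r : ℕ}
  {F : Type} [Field F] {n : ℕ} {K L J Q : Submodule F (Matrix (Fin n) (Fin n) F)}
  {τ τ' : Matrix (Fin n) (Fin n) F ≃+ Matrix (Fin n) (Fin n) F}
  {π : Matrix.SpecialLinearGroup (Fin n) F →* G}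

theorem charP_of_dvd [Finite F] (hp : r.Prime) (hr : r ∣ Nat.card F) : CharP F r := by
  have := Fintype.ofFinite F
  obtain ⟨p, hchar⟩ := CharP.exists F
  obtain ⟨m, hprime, hcard⟩ := FiniteField.card F p
  rw [Nat.card_eq_fintype_card, hcard] at hr
  have := (Nat.prime_dvd_prime_iff_eq hp hprime).1 (hp.dvd_of_dvd_pow hr)
  rw [this]
  exact hchar

theorem one_add_pow [Fact r.Prime] [CharP F r] {y : Matrix (Fin n) (Fin n) F} (hy : y * y = 0) : (1 + y) ^ r = 1 := by
  have hr := (Fact.out : r.Prime)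
  have h1 : (1 + y) ^ r = 1 ^ r + y ^ r := by
    rcases Nat.eq_zero_or_pos n with rfl | hn
    · exact Subsingleton.elim _ _
    · have : Nonempty (Fin n) := ⟨⟨0, hn⟩⟩
      have : CharP (Matrix (Fin n) (Fin n) F) r := inferInstance
      exact add_pow_char_of_commute (R := Matrix (Fin n) (Fin n) F) (p := r) (Commute.one_left y)
  have h2 : y ^ r = 0 := by
    obtain ⟨m, hm⟩ := Nat.exists_eq_add_of_le hr.two_le
    rw [hm, pow_add, pow_two, hy, zero_mul]
  rw [h1, h2, one_pow, add_zero]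

theorem det_one_add [Fact r.Prime] [CharP F r] {y : Matrix (Fin n) (Fin n) F} (hy : y * y = 0) : (1 + y).det = 1 := by
  have h1 := congrArg Matrix.det (one_add_pow (r := r) hy)
  rw [det_pow, det_one] at h1
  have h2 : ((1 + y).det - 1) ^ r = 0 := by
    rw [sub_pow_char, h1, one_pow, sub_self]
  exact sub_eq_zero.1 (pow_eq_zero_iff (Fact.out : r.Prime).ne_zero |>.1 h2)

theorem vm_sq {u φ : Fin n → F} (h : φ ⬝ᵥ u = 0) : vecMulVec u φ * vecMulVec u φ = 0 := by
  rw [vm_mul_vm, h, zero_smul]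

/-- `r` divides the order of `N` -/
theorem dvd_card_N [Finite G] [Fact r.Prime] [CharP F r] (hM : Model N (iSL n F) π) : r ∣ Nat.card ↥N := by
  have h2 := hM.two
  set a : Fin n := ⟨0, by omega⟩
  set b : Fin n := ⟨1, by omega⟩
  have hab : b ≠ a := by
    intro h
    have := congrArg Fin.val h
    simp [a, b] at this
  have h0 : (Pi.single b (1 : F) : Fin n → F) ⬝ᵥ Pi.single a 1 = 0 := by
    rw [dotProduct_single, Pi.single_eq_of_ne hab.symm, zero_mul]
  set t := tv (Pi.single a (1 : F)) (Pi.single b 1) h0 with ht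
  have htr : t ^ r = 1 := by
    apply Subtype.ext
    rw [Matrix.SpecialLinearGroup.coe_pow, ht, coe_tv, one_add_pow (vm_sq h0), Matrix.SpecialLinearGroup.coe_one]
  have hx : π t ∈ N := by rw [← hM.range]; exact ⟨t, rfl⟩
  have hx1 : π t ≠ 1 := by
    intro h
    obtain ⟨c, hc⟩ := (hM.ker t).1 h
    have h3 := congrFun (congrFun hc a) b
    rw [mt_SL, ht, coe_tv] at h3
    simp only [Matrix.add_apply, Matrix.smul_apply, Matrix.one_apply_ne hab.symm, vecMulVec_apply, Pi.single_eq_same,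
      smul_eq_mul, mul_zero, zero_add, mul_one] at h3
    exact one_ne_zero h3
  have h4 : orderOf (⟨π t, hx⟩ : ↥N) = r := by
    apply orderOf_eq_prime
    · apply Subtype.ext
      change π t ^ r = 1
      rw [← _root_.map_pow, htr, map_one]
    · intro h
      exact hx1 (congrArg Subtype.val h)
  rw [← h4]
  exact orderOf_dvd_natCard _

theorem OO_inf_ne_bot [Finite G] [Finite F] (h : Loc N A r) (hr : r ∣ Nat.card F) (hM : Model N (iSL n F) π)
    (hA : A ≠ ⊥) : OO r A ⊓ N ≠ ⊥ := by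
  intro h0
  have := h.fact
  have := charP_of_dvd h.prime hr
  have hN := h.normal
  -- `A ∩ N = 1`
  have hAN : A ⊓ N = ⊥ := by
    rw [eq_bot_iff]
    rintro y ⟨hyA, hyN⟩
    have h1 : y ∈ OO r A := by
      apply h.mem_OO_of_comm hyA
      intro x hx
      have h2 : y * x * y⁻¹ * x⁻¹ ∈ OO r A ⊓ N := by
        refine mem_inf.2 ⟨(OO r A).mul_mem (conj_mem_OO hyA hx) ((OO r A).inv_mem hx), ?_⟩
        have h3 : x * y⁻¹ * x⁻¹ ∈ N := hN.conj_mem _ (N.inv_mem hyN) x
        have := N.mul_mem hyN h3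
        simpa [mul_assoc] using this
      rw [h0, mem_bot] at h2
      have := mul_inv_eq_one.1 h2
      exact mul_inv_eq_iff_eq_mul.1 this
    rw [← h0]
    exact ⟨h1, hyN⟩
  have hQ := h.OO_ne_bot hA
  -- `C_N(Q) = 1`
  have hC : N ⊓ centralizer (OO r A : Set G) = ⊥ := by
    rw [eq_bot_iff, ← hAN]
    have h1 : N ⊓ centralizer (OO r A : Set G) ≤ A := by
      apply h.le_of_norm' inf_le_left
      · intro h2
        apply hQ
        rw [eq_bot_iff]
        intro x hx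
        rw [mem_bot]
        apply h.eq_one_of_comm
        intro y hy
        rw [← h2] at hy
        exact (mem_centralizer_iff.1 hy.2 x hx)
      · apply le_normalizer_of_conj
        rintro a ha x ⟨hxN, hxc⟩
        refine mem_inf.2 ⟨hN.conj_mem _ hxN a, ?_⟩
        rw [mem_centralizer_iff]
        intro y hy
        have h3 : a⁻¹ * y * a ∈ OO r A := by
          have := conj_mem_OO (A.inv_mem ha) hy
          rwa [inv_inv] at this
        have h4 := mem_centralizer_iff.1 hxc _ h3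
        calc y * (a * x * a⁻¹) = a * ((a⁻¹ * y * a) * x) * a⁻¹ := by group
          _ = a * (x * (a⁻¹ * y * a)) * a⁻¹ := by rw [h4]
          _ = a * x * a⁻¹ * y := by group
    exact fun x hx => ⟨h1 hx, hx.1⟩
  -- the fixed point theorem
  let _ : MulAction ↥(OO r A) ↥N :=
    { smul := fun s x => ⟨(s : G) * x * (s : G)⁻¹, hN.conj_mem _ x.2 _⟩
      one_smul := fun x => Subtype.ext (by
        change ((1 : ↥(OO r A)) : G) * (x : G) * ((1 : ↥(OO r A)) : G)⁻¹ = x
        simp)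
      mul_smul := fun s t x => Subtype.ext (by
        change ((s * t : ↥(OO r A)) : G) * (x : G) * ((s * t : ↥(OO r A)) : G)⁻¹ = (s : G) * ((t : G) * x * (t : G)⁻¹) * (s : G)⁻¹
        rw [Subgroup.coe_mul]; group) }
  have hsm : ∀ (s : ↥(OO r A)) (x : ↥N), ((s • x : ↥N) : G) = (s : G) * x * (s : G)⁻¹ := fun _ _ => rfl
  have h1 : (1 : ↥N) ∈ MulAction.fixedPoints ↥(OO r A) ↥N := by
    intro s
    apply Subtype.ext
    rw [hsm]
    simp
  obtain ⟨b, hb, hb1⟩ := (isPGroup_OO r A).exists_fixed_point_of_prime_dvd_card_of_fixed_point ↥N (dvd_card_N hM) h1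
  apply hb1
  have h2 : (b : G) ∈ N ⊓ centralizer (OO r A : Set G) := by
    refine mem_inf.2 ⟨b.2, ?_⟩
    rw [mem_centralizer_iff]
    intro y hy
    have := congrArg Subtype.val (hb ⟨y, hy⟩)
    rw [hsm] at this
    exact mul_inv_eq_iff_eq_mul.1 this
  rw [hC, mem_bot] at h2
  exact Subtype.ext h2.symm

/-- an element commuting with a transvection: lift of the first kind -/
theorem tauP_tv (hM : Model N (iSL n F) π) {x : G} (hm : IsMul τ) (hs : Semi τ)
    (hi : ∀ s : Matrix.SpecialLinearGroup (Fin n) F, ∃ s' : Matrix.SpecialLinearGroup (Fin n) F,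
      mt (iSL n F) s' = τ (mt (iSL n F) s) ∧ π s' = x * π s * x⁻¹)
    {u φ : Fin n → F} (h : φ ⬝ᵥ u = 0) (hc : x * π (tv u φ h) = π (tv u φ h) * x) : τ (vecMulVec u φ) = vecMulVec u φ := by
  by_cases hu : u = 0
  · rw [hu, zero_vecMulVec, map_zero]
  obtain ⟨s', h1, h2⟩ := hi (tv u φ h)
  rw [hc, mul_inv_cancel_right] at h2
  have h3 : π ((tv u φ h)⁻¹ * s') = 1 := by rw [map_mul, map_inv, h2, inv_mul_cancel]
  obtain ⟨c, hcc⟩ := (hM.ker _).1 h3
  have h4 : (s' : Matrix (Fin n) (Fin n) F) = c • (1 + vecMulVec u φ) := by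
    have h5 : (s' : Matrix (Fin n) (Fin n) F) = (tv u φ h : Matrix (Fin n) (Fin n) F) *
        (((tv u φ h)⁻¹ * s' : Matrix.SpecialLinearGroup (Fin n) F) : Matrix (Fin n) (Fin n) F) := by
      rw [← Matrix.SpecialLinearGroup.coe_mul, mul_inv_cancel_left]
    rw [h5, ← mt_SL ((tv u φ h)⁻¹ * s'), hcc, mul_smul_comm, mul_one, coe_tv]
  rw [mt_SL, mt_SL, h4, coe_tv, map_add, hs.one] at h1
  -- `c (1 + y) = 1 + τ y`
  have h6 : τ (vecMulVec u φ) *ᵥ u = (c - 1) • u := by
    have h7 : τ (vecMulVec u φ) = c • (1 + vecMulVec u φ) - 1 := by rw [h1]; abel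
    rw [h7, sub_mulVec, smul_mulVec, add_mulVec, one_mulVec, vm_mulVec, h, zero_smul, add_zero, sub_smul, one_smul]
  have h8 : τ (vecMulVec u φ) * τ (vecMulVec u φ) = 0 := by rw [← hm, vm_sq h, map_zero]
  have h9 : (c - 1) * (c - 1) = 0 := by
    have h10 : (τ (vecMulVec u φ) * τ (vecMulVec u φ)) *ᵥ u = ((c - 1) * (c - 1)) • u := by
      rw [← mulVec_mulVec, h6, mulVec_smul, h6, smul_smul]
    rw [h8, zero_mulVec] at h10
    rcases smul_eq_zero.1 h10.symm with h11 | h11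
    · exact h11
    · exact absurd h11 hu
  have hc1 : c = 1 := sub_eq_zero.1 (mul_self_eq_zero.1 h9)
  rw [hc1, one_smul] at h1
  exact (add_left_cancel h1).symm

/-- an element commuting with a transvection: lift of the second kind -/
theorem tauM_tv (hM : Model N (iSL n F) π) {x : G} (hm : IsAnti τ) (hs : Semi τ)
    (hi : ∀ s : Matrix.SpecialLinearGroup (Fin n) F, ∃ s' : Matrix.SpecialLinearGroup (Fin n) F,
      mt (iSL n F) s' = τ (mt (iSL n F) s) ∧ (π s')⁻¹ = x * π s * x⁻¹)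
    {u φ : Fin n → F} (h : φ ⬝ᵥ u = 0) (hc : x * π (tv u φ h) = π (tv u φ h) * x) : τ (vecMulVec u φ) = -vecMulVec u φ := by
  by_cases hu : u = 0
  · rw [hu, zero_vecMulVec, map_zero, neg_zero]
  obtain ⟨s', h1, h2⟩ := hi (tv u φ h)
  rw [hc, mul_inv_cancel_right] at h2
  have h3 : π (s' * tv u φ h) = 1 := by rw [map_mul, ← h2, mul_inv_cancel]
  obtain ⟨c, hcc⟩ := (hM.ker _).1 h3
  have h4 : (s' : Matrix (Fin n) (Fin n) F) = c • (1 - vecMulVec u φ) := by
    have h5 : (s' : Matrix (Fin n) (Fin n) F) = ((s' * tv u φ h : Matrix.SpecialLinearGroup (Fin n) F) : Matrix (Fin n) (Fin n) F) *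
        (((tv u φ h)⁻¹ : Matrix.SpecialLinearGroup (Fin n) F) : Matrix (Fin n) (Fin n) F) := by
      rw [← Matrix.SpecialLinearGroup.coe_mul, mul_inv_cancel_right]
    rw [h5, ← mt_SL (s' * tv u φ h), hcc, smul_mul_assoc, one_mul, tv_inv]
  rw [mt_SL, mt_SL, h4, coe_tv, map_add, hs.one] at h1
  have h6 : τ (vecMulVec u φ) *ᵥ u = (c - 1) • u := by
    have h7 : τ (vecMulVec u φ) = c • (1 - vecMulVec u φ) - 1 := by rw [h1]; abel
    rw [h7, sub_mulVec, smul_mulVec, sub_mulVec, one_mulVec, vm_mulVec, h, zero_smul, sub_zero, sub_smul, one_smul]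
  have h8 : τ (vecMulVec u φ) * τ (vecMulVec u φ) = 0 := by rw [← hm, vm_sq h, map_zero]
  have h9 : (c - 1) * (c - 1) = 0 := by
    have h10 : (τ (vecMulVec u φ) * τ (vecMulVec u φ)) *ᵥ u = ((c - 1) * (c - 1)) • u := by
      rw [← mulVec_mulVec, h6, mulVec_smul, h6, smul_smul]
    rw [h8, zero_mulVec] at h10
    rcases smul_eq_zero.1 h10.symm with h11 | h11
    · exact h11
    · exact absurd h11 hu
  have hc1 : c = 1 := sub_eq_zero.1 (mul_self_eq_zero.1 h9)
  rw [hc1, one_smul, sub_eq_add_neg] at h1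
  exact (add_left_cancel h1).symm

/-- first kind: the centralizer of `A ∩ N` lies in `N` -/
theorem cent_P [Finite F] (h : Loc N A r) (hr : r ∣ Nat.card F) (hM : Model N (iSL n F) π) (hK : Inn K)
    (hSt : St K ≤ A.comap π) {x : G} (hx : ∀ y ∈ A ⊓ N, x * y = y * x) {B : Matrix.GeneralLinearGroup (Fin n) F} {σ : F ≃+* F}
    (hi : ∀ s : Matrix.SpecialLinearGroup (Fin n) F, ∃ s' : Matrix.SpecialLinearGroup (Fin n) F,
      mt (iSL n F) s' = tauP B σ (mt (iSL n F) s) ∧ π s' = x * π s * x⁻¹) : x ∈ N := by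
  have := h.fact
  have := charP_of_dvd h.prime hr
  have hcomm : ∀ {u φ : Fin n → F} (h : φ ⬝ᵥ u = 0), tv u φ h ∈ St K → tauP B σ (vecMulVec u φ) = vecMulVec u φ := by
    intro u φ h0 ht
    apply tauP_tv hM (tauP_mul B σ) (tauP_semi B σ) hi h0
    apply hx
    exact ⟨hSt ht, by rw [← hM.range]; exact ⟨_, rfl⟩⟩
  obtain ⟨ψ₀, hψ₀, w, hw⟩ := exists_row hK.ne
  obtain ⟨u₀, hu₀, hu₀0⟩ := (U K).ne_bot_iff.1 hK.U_ne_bot
  have hψ₀ne : ψ₀ ≠ 0 := by
    rintro rfl
    rw [zero_dotProduct] at hw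
    exact zero_ne_one hw
  -- `σ = 1`
  have hσ : ∀ c, σ c = c := by
    intro c
    have h0 : ψ₀ ⬝ᵥ u₀ = 0 := Ul_An hψ₀ (hK.U_le hu₀)
    have h0' : ψ₀ ⬝ᵥ (c • u₀) = 0 := Ul_An hψ₀ (hK.U_le ((U K).smul_mem c hu₀))
    have h1 := hcomm h0 (hK.tv_mem₁ h0 hu₀)
    have h2 := hcomm h0' (hK.tv_mem₁ h0' ((U K).smul_mem c hu₀))
    rw [smul_vecMulVec, tauP_smul, h1] at h2
    have h3 : (σ c - c) • vecMulVec u₀ ψ₀ = 0 := by rw [sub_smul, h2, sub_self]
    rcases smul_eq_zero.1 h3 with h4 | h4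
    · exact sub_eq_zero.1 h4
    · rcases vecMulVec_eq_zero.1 h4 with h5 | h5
      · exact absurd h5 hu₀0
      · exact absurd h5 hψ₀ne
  have hmap : ∀ y : Matrix (Fin n) (Fin n) F, y.map σ = y := fun y => by ext i j; exact hσ _
  have hBB : ((B⁻¹ : Matrix.GeneralLinearGroup (Fin n) F) : Matrix (Fin n) (Fin n) F) * (B : Matrix (Fin n) (Fin n) F) = 1 := by
    rw [← Units.val_mul, inv_mul_cancel, Units.val_one]
  have hBB' : (B : Matrix (Fin n) (Fin n) F) * ((B⁻¹ : Matrix.GeneralLinearGroup (Fin n) F) : Matrix (Fin n) (Fin n) F) = 1 := by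
    rw [← Units.val_mul, mul_inv_cancel, Units.val_one]
  have hBcomm : ∀ y : Matrix (Fin n) (Fin n) F, tauP B σ y = y → (B : Matrix (Fin n) (Fin n) F) * y = y * B := by
    intro y hy
    rw [tauP_apply, hmap] at hy
    calc (B : Matrix (Fin n) (Fin n) F) * y = (B : Matrix (Fin n) (Fin n) F) * y * 1 := by rw [mul_one]
      _ = ((B : Matrix (Fin n) (Fin n) F) * y * ((B⁻¹ : Matrix.GeneralLinearGroup (Fin n) F) : Matrix (Fin n) (Fin n) F)) * B := by
        rw [← hBB]; simp only [mul_assoc]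
      _ = y * B := by rw [hy]
  set lam : F := (ψ₀ ᵥ* (B : Matrix (Fin n) (Fin n) F)) ⬝ᵥ w with hlam
  have hAn : ∀ v ∈ An K, (B : Matrix (Fin n) (Fin n) F) *ᵥ v = lam • v := by
    intro v hv
    have h0 : ψ₀ ⬝ᵥ v = 0 := Ul_An hψ₀ hv
    have h1 := hBcomm _ (hcomm h0 (hK.tv_mem₂ h0 hψ₀))
    rw [mul_vecMulVec, vecMulVec_mul] at h1
    have h2 := congrArg (fun M => M *ᵥ w) h1
    simp only [vm_mulVec] at h2
    rwa [hw, one_smul] at h2
  have hrow : ∀ φ : Fin n → F, (∀ u ∈ U K, φ ⬝ᵥ u = 0) → φ ᵥ* (B : Matrix (Fin n) (Fin n) F) = lam • φ := by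
    intro φ hφ
    have h0 := hφ u₀ hu₀
    have h1 := hBcomm _ (hcomm h0 (hK.tv_mem₁ h0 hu₀))
    rw [mul_vecMulVec, vecMulVec_mul, hAn u₀ (hK.U_le hu₀), smul_vecMulVec, ← vecMulVec_smul] at h1
    obtain ⟨i, hi0⟩ : ∃ i, u₀ i ≠ 0 := by
      by_contra hcon
      push Not at hcon
      exact hu₀0 (funext hcon)
    ext j
    have h2 := congrFun (congrFun h1 i) j
    rw [vecMulVec_apply, vecMulVec_apply] at h2
    exact (mul_left_cancel₀ hi0 h2).symm
  set D : Matrix (Fin n) (Fin n) F := (B : Matrix (Fin n) (Fin n) F) - lam • 1 with hD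
  have hDK : D ∈ K := by
    rw [hK.mem_iff]
    constructor
    · intro v
      apply mem_U_of
      intro φ hφ
      rw [dotProduct_mulVec, hD, vecMul_sub, hrow φ hφ, vecMul_smul, vecMul_one, sub_self, zero_dotProduct]
    · intro v hv
      rw [hD, sub_mulVec, hAn v hv, smul_mulVec, one_mulVec, sub_self]
  have hB : (B : Matrix (Fin n) (Fin n) F) = lam • 1 + D := by rw [hD]; abel
  have hn : 0 < n := by have := hM.two; omega
  have hne : Nonempty (Fin n) := ⟨⟨0, hn⟩⟩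
  have hlam0 : lam ≠ 0 := by
    intro h0
    rw [h0, zero_smul, zero_add] at hB
    have h1 : (B : Matrix (Fin n) (Fin n) F) * B = 0 := by rw [hB]; exact hK.sq D hDK D hDK
    have h2 : (1 : Matrix (Fin n) (Fin n) F) = 0 := by
      calc (1 : Matrix (Fin n) (Fin n) F) = ((B⁻¹ : Matrix.GeneralLinearGroup (Fin n) F) : Matrix (Fin n) (Fin n) F) *
            (((B⁻¹ : Matrix.GeneralLinearGroup (Fin n) F) : Matrix (Fin n) (Fin n) F) * (B : Matrix (Fin n) (Fin n) F)) * B := by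
            rw [hBB, mul_one, hBB]
        _ = ((B⁻¹ : Matrix.GeneralLinearGroup (Fin n) F) : Matrix (Fin n) (Fin n) F) *
            ((B⁻¹ : Matrix.GeneralLinearGroup (Fin n) F) : Matrix (Fin n) (Fin n) F) * (B * B) := by simp only [mul_assoc]
        _ = 0 := by rw [h1, mul_zero]
    exact one_ne_zero h2
  have hEE : (lam⁻¹ • D) * (lam⁻¹ • D) = 0 := hK.sq _ (K.smul_mem _ hDK) _ (K.smul_mem _ hDK)
  let s₀ : Matrix.SpecialLinearGroup (Fin n) F := ⟨1 + lam⁻¹ • D, det_one_add (r := r) hEE⟩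
  have hs₀ : (B : Matrix (Fin n) (Fin n) F) = lam • (s₀ : Matrix (Fin n) (Fin n) F) := by
    change _ = lam • (1 + lam⁻¹ • D)
    rw [smul_add, smul_smul, mul_inv_cancel₀ hlam0, one_smul, hB]
  have hx0 : (π s₀)⁻¹ * x = 1 := by
    apply h.eq_one_of_comm
    intro y hy
    rw [← hM.range] at hy
    obtain ⟨s, rfl⟩ := hy
    obtain ⟨s', h1, h2⟩ := hi s
    have h3 : s' = s₀ * s * s₀⁻¹ := by
      apply Subtype.ext
      change mt (iSL n F) s' = _
      rw [h1, tauP_apply, hmap, mt_SL]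
      have h4 : (B : Matrix (Fin n) (Fin n) F) * (s : Matrix (Fin n) (Fin n) F) =
          ((s₀ * s * s₀⁻¹ : Matrix.SpecialLinearGroup (Fin n) F) : Matrix (Fin n) (Fin n) F) * B := by
        rw [hs₀, smul_mul_assoc, mul_smul_comm, ← Matrix.SpecialLinearGroup.coe_mul, ← Matrix.SpecialLinearGroup.coe_mul,
          inv_mul_cancel_right]
      rw [h4, mul_assoc, hBB', mul_one]
    rw [h3, map_mul, map_mul, map_inv] at h2
    calc (π s₀)⁻¹ * x * π s = (π s₀)⁻¹ * (x * π s * x⁻¹) * x := by group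
      _ = (π s₀)⁻¹ * (π s₀ * π s * (π s₀)⁻¹) * x := by rw [← h2]
      _ = π s * ((π s₀)⁻¹ * x) := by group
  have hx1 : x = π s₀ := by
    rw [inv_mul_eq_one] at hx0
    exact hx0.symm
  rw [hx1, ← hM.range]
  exact ⟨s₀, rfl⟩

/-- second kind: impossible for `n ≥ 3` -/
theorem cent_M (hn : 3 ≤ n) (hM : Model N (iSL n F) π) (hK : Inn K)
    (hSt : St K ≤ A.comap π) {x : G} (hx : ∀ y ∈ A ⊓ N, x * y = y * x) {B : Matrix.GeneralLinearGroup (Fin n) F} {σ : F ≃+* F}
    (hi : ∀ s : Matrix.SpecialLinearGroup (Fin n) F, ∃ s' : Matrix.SpecialLinearGroup (Fin n) F,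
      mt (iSL n F) s' = tauM B σ (mt (iSL n F) s) ∧ (π s')⁻¹ = x * π s * x⁻¹) : False := by
  obtain ⟨ψ₀, hψ₀, w, hw⟩ := exists_row hK.ne
  set z : Fin n → F := (B : Matrix (Fin n) (Fin n) F) *ᵥ (fun i => σ (ψ₀ i)) with hz
  have key : ∀ v, ψ₀ ⬝ᵥ v = 0 → v ∈ Submodule.span F {z} := by
    intro v h0
    have ht := hK.tv_mem₂ h0 hψ₀
    have h1 : tauM B σ (vecMulVec v ψ₀) = -vecMulVec v ψ₀ := by
      apply tauM_tv hM (tauM_anti B σ) (tauM_semi B σ) hi h0
      apply hx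
      exact ⟨hSt ht, by rw [← hM.range]; exact ⟨_, rfl⟩⟩
    have h2 : tauM B σ (vecMulVec v ψ₀) = vecMulVec z
        ((fun i => σ (v i)) ᵥ* ((B⁻¹ : Matrix.GeneralLinearGroup (Fin n) F) : Matrix (Fin n) (Fin n) F)) := by
      rw [tauM_apply, transpose_vecMulVec]
      have h3 : (vecMulVec ψ₀ v).map σ = vecMulVec (fun i => σ (ψ₀ i)) (fun i => σ (v i)) := by
        ext i j
        rw [Matrix.map_apply, vecMulVec_apply, vecMulVec_apply, map_mul]
      rw [h3, mul_vecMulVec, vecMulVec_mul]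
    rw [h2] at h1
    have h4 := congrArg (fun M => M *ᵥ w) h1
    simp only [vm_mulVec, neg_mulVec] at h4
    rw [hw, one_smul] at h4
    rw [← neg_neg v, ← h4, ← neg_smul]
    exact Submodule.smul_mem _ _ (Submodule.mem_span_singleton_self z)
  let f : (Fin n → F) →ₗ[F] F :=
    { toFun := fun v => ψ₀ ⬝ᵥ v
      map_add' := fun a b => dotProduct_add _ _ _
      map_smul' := fun c a => dotProduct_smul _ _ _ }
  have h1 : LinearMap.ker f ≤ Submodule.span F {z} := fun v hv => key v (LinearMap.mem_ker.1 hv)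
  have h2 := Submodule.finrank_mono h1
  have h3 : Module.finrank F ↥(Submodule.span F {z}) ≤ 1 := by
    have := finrank_span_le_card (R := F) ({z} : Set (Fin n → F))
    rwa [Set.toFinset_singleton, Finset.card_singleton] at this
  have h4 := LinearMap.finrank_range_add_finrank_ker f
  have h5 : Module.finrank F ↥(LinearMap.range f) ≤ 1 := by
    have := Submodule.finrank_le (LinearMap.range f)
    rwa [Module.finrank_self] at this
  rw [Module.finrank_fin_fun] at h4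
  have h6 : Module.finrank F ↥(Submodule.span F {z}) ≤ 1 := h3
  omega

end Cfsg.Agent.H801.Sims
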