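import Cfsg.Agent.H801.Sims.Grp

/-!
# Characteristic `r`: the `r`-subgroups of `N` lift to unipotent subgroups, and `KK (JJ X) ≠ 0`
-/

set_option autoImplicit false
set_option linter.unusedVariables false

namespace Cfsg.Agent.H801.Sims

open Matrix Cfsg.Agent.H607.TW Subgroup

universe u

variable {G : Type u} [Group G] {N A C : Subgroup G} {r : ℕ}
  {F : Type} [Field F] {n : ℕ} {K L J Q : Submodule F (Matrix (Fin n) (Fin n) F)}
  {τ τ' : Matrix (Fin n) (Fin n) F ≃+ Matrix (Fin n) (Fin n) F}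
  {π : Matrix.SpecialLinearGroup (Fin n) F →* G}

theorem ker_central (hM : Model N (iSL n F) π) {s t : Matrix.SpecialLinearGroup (Fin n) F} (hs : π s = 1) : s * t = t * s := by
  obtain ⟨c, hc⟩ := (hM.ker s).1 hs
  apply Subtype.ext
  change (s : Matrix (Fin n) (Fin n) F) * (t : Matrix (Fin n) (Fin n) F) = (t : Matrix (Fin n) (Fin n) F) * (s : Matrix (Fin n) (Fin n) F)
  rw [← mt_SL s, hc, smul_mul_assoc, one_mul, mul_smul_comm, mul_one]

/-- the `r`-elements over an `r`-subgroup `X` of `N` form a subgroup mapping onto `X` -/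
theorem exists_P [Finite G] [Finite F] [Fact r.Prime] (hM : Model N (iSL n F) π) {X : Subgroup G} (hX : IsPGroup r ↥X)
    (hXN : X ≤ N) : ∃ P : Subgroup (Matrix.SpecialLinearGroup (Fin n) F), IsPGroup r ↥P ∧ (∀ s, s ∈ P ↔ s ∈ Xh π X r) ∧
      P.map π = X := by
  have hfin : Finite (Matrix.SpecialLinearGroup (Fin n) F) := inferInstance
  set Y := X.comap π with hY
  let f : ↥Y →* ↥X := π.subgroupComap X
  have hf : Function.Surjective f := by
    rintro ⟨x, hx⟩
    have : x ∈ π.range := by rw [hM.range]; exact hXN hx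
    obtain ⟨s, hs⟩ := this
    exact ⟨⟨s, by rw [hY, mem_comap, hs]; exact hx⟩, Subtype.ext hs⟩
  have hX' : Group.IsNilpotent ↥X := hX.isNilpotent
  have hY' : Group.IsNilpotent ↥Y := by
    refine Subgroup.isNilpotent_of_ker_le_center f ?_
    intro s hs
    rw [mem_center_iff]
    intro t
    apply Subtype.ext
    have h1 : π (s : Matrix.SpecialLinearGroup (Fin n) F) = 1 := congrArg Subtype.val hs
    exact (ker_central hM h1).symm
  let P₀ : Sylow r ↥Y := default
  have hP₀ : (P₀ : Subgroup ↥Y).Normal := inferInstance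
  refine ⟨(P₀ : Subgroup ↥Y).map Y.subtype, P₀.2.map _, fun s => ⟨?_, ?_⟩, ?_⟩
  · rintro ⟨⟨s, hs⟩, hsP, rfl⟩
    obtain ⟨k, hk⟩ := P₀.2 ⟨_, hsP⟩
    refine ⟨hs, k, ?_⟩
    have := congrArg (fun x => ((x : ↥Y) : Matrix.SpecialLinearGroup (Fin n) F)) (congrArg Subtype.val hk)
    simpa using this
  · rintro ⟨hs, k, hk⟩
    refine ⟨⟨s, hs⟩, ?_, rfl⟩
    have h1 : IsPGroup r ↥(zpowers (⟨s, hs⟩ : ↥Y)) := by
      rw [IsPGroup.iff_orderOf]
      rintro ⟨x, hx⟩
      have h2 : orderOf x ∣ r ^ k := by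
        obtain ⟨j, rfl⟩ := mem_zpowers_iff.1 hx
        apply orderOf_dvd_of_pow_eq_one
        apply Subtype.ext
        push_cast
        rw [← zpow_natCast, ← _root_.zpow_mul, mul_comm, _root_.zpow_mul, zpow_natCast, hk, _root_.one_zpow]
      obtain ⟨m, -, hm⟩ := (Nat.dvd_prime_pow (Fact.out : r.Prime)).1 h2
      exact ⟨m, by rw [Subgroup.orderOf_mk, hm]⟩
    have h2 : IsPGroup r ↥((P₀ : Subgroup ↥Y) ⊔ zpowers (⟨s, hs⟩ : ↥Y)) := P₀.2.to_sup_of_normal_left h1
    have h3 := P₀.3 h2 le_sup_left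
    have h4 : (⟨s, hs⟩ : ↥Y) ∈ (P₀ : Subgroup ↥Y) ⊔ zpowers (⟨s, hs⟩ : ↥Y) :=
      mem_sup_right (mem_zpowers _)
    rw [h3] at h4
    exact h4
  · have h1 : ((P₀.mapSurjective hf : Sylow r ↥X) : Subgroup ↥X) = ⊤ := by
      have := (P₀.mapSurjective hf).3 (Q := ⊤) (by
        intro x
        obtain ⟨k, hk⟩ := hX (x : ↥X)
        exact ⟨k, Subtype.ext hk⟩) le_top
      exact this.symm
    rw [Sylow.coe_mapSurjective] at h1
    ext x
    constructor
    · rintro ⟨_, ⟨s, hs, rfl⟩, rfl⟩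
      exact s.2
    · intro hx
      have h2 : (⟨x, hx⟩ : ↥X) ∈ (P₀ : Subgroup ↥Y).map f := by rw [h1]; trivial
      obtain ⟨s, hs, hsx⟩ := h2
      exact ⟨s, ⟨s, hs, rfl⟩, congrArg Subtype.val hsx⟩

theorem JJ_mul_mem {s : Matrix.SpecialLinearGroup (Fin n) F} {X : Subgroup G} (hs : s ∈ Xh π X r) :
    (s : Matrix (Fin n) (Fin n) F) - 1 ∈ JJ π X r := Submodule.subset_span ⟨s, hs, rfl⟩

theorem JJ_ne_bot [Finite G] [Finite F] [Fact r.Prime] (hM : Model N (iSL n F) π) {X : Subgroup G} (hX : IsPGroup r ↥X)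
    (hXN : X ≤ N) (hne : X ≠ ⊥) : JJ π X r ≠ ⊥ := by
  obtain ⟨P, hP, hPm, hPX⟩ := exists_P hM hX hXN
  obtain ⟨⟨x, hx⟩, hx1'⟩ := X.ne_bot_iff_exists_ne_one.1 hne
  have hx1 : x ≠ 1 := fun h => hx1' (Subtype.ext h)
  have hx' := hx
  rw [← hPX] at hx'
  obtain ⟨s, hs, rfl⟩ := hx'
  rw [Submodule.ne_bot_iff]
  refine ⟨_, JJ_mul_mem ((hPm s).1 hs), fun h => hx1 ?_⟩
  have : s = 1 := Subtype.ext (sub_eq_zero.1 h)
  rw [this, map_one]

/-- the fixed point theorem for a group of matrices `P` acting on a right ideal -/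
theorem exists_fixed [Finite F] [Fact r.Prime] (hr : r ∣ Nat.card F) {P : Subgroup (Matrix.SpecialLinearGroup (Fin n) F)}
    (hP : IsPGroup r ↥P) {I : Submodule F (Matrix (Fin n) (Fin n) F)} (hI : I ≠ ⊥)
    (f : ↥P →* (Matrix (Fin n) (Fin n) F →ₗ[F] Matrix (Fin n) (Fin n) F)) (hf : ∀ s x, x ∈ I → f s x ∈ I) :
    ∃ x ∈ I, x ≠ 0 ∧ ∀ s, f s x = x := by
  let _ : MulAction ↥P ↥I :=
    { smul := fun s x => ⟨f s x, hf s x x.2⟩
      one_smul := fun x => Subtype.ext (by
        change f 1 (x : Matrix (Fin n) (Fin n) F) = x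
        rw [map_one]; rfl)
      mul_smul := fun s t x => Subtype.ext (by
        change f (s * t) (x : Matrix (Fin n) (Fin n) F) = f s (f t x)
        rw [map_mul]; rfl) }
  have hsm : ∀ (s : ↥P) (x : ↥I), ((s • x : ↥I) : Matrix (Fin n) (Fin n) F) = f s x := fun _ _ => rfl
  have hc : r ∣ Nat.card ↥I := by
    have h1 : Nat.card ↥I = Nat.card F ^ Module.finrank F ↥I := Module.natCard_eq_pow_finrank
    rw [h1]
    apply dvd_pow hr
    intro h0
    exact hI (Submodule.finrank_eq_zero.1 h0)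
  have h0 : (0 : ↥I) ∈ MulAction.fixedPoints ↥P ↥I := by
    intro s
    apply Subtype.ext
    rw [hsm]
    exact map_zero _
  obtain ⟨b, hb, hb0⟩ := hP.exists_fixed_point_of_prime_dvd_card_of_fixed_point ↥I hc h0
  refine ⟨b, b.2, fun h => hb0 (Subtype.ext h.symm), fun s => ?_⟩
  have := congrArg Subtype.val (hb s)
  rwa [hsm] at this

theorem KK_ne_bot [Finite G] [Finite F] [Fact r.Prime] (hr : r ∣ Nat.card F) (hM : Model N (iSL n F) π) {X : Subgroup G}
    (hX : IsPGroup r ↥X) (hXN : X ≤ N) (hne : X ≠ ⊥) : KK (JJ π X r) ≠ ⊥ := by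
  obtain ⟨P, hP, hPm, hPX⟩ := exists_P hM hX hXN
  have hJ := JJ_ne_bot hM hX hXN hne
  set J := JJ π X r with hJdef
  -- left multiplication
  have hJT : J * ⊤ ≠ ⊥ := fun h => hJ (le_bot_iff.1 (h ▸ le_mul_top J))
  have hTJ : ⊤ * J ≠ ⊥ := fun h => hJ (le_bot_iff.1 (h ▸ le_top_mul J))
  let fl : ↥P →* (Matrix (Fin n) (Fin n) F →ₗ[F] Matrix (Fin n) (Fin n) F) :=
    { toFun := fun s => LinearMap.mulLeft F ((s : Matrix.SpecialLinearGroup (Fin n) F) : Matrix (Fin n) (Fin n) F)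
      map_one' := by
        ext x
        simp
      map_mul' := fun s t => by
        apply LinearMap.ext
        intro x
        change (((s * t : ↥P) : Matrix.SpecialLinearGroup (Fin n) F) : Matrix (Fin n) (Fin n) F) * x = _ * (_ * x)
        rw [← mul_assoc]
        rfl }
  let fr : ↥P →* (Matrix (Fin n) (Fin n) F →ₗ[F] Matrix (Fin n) (Fin n) F) :=
    { toFun := fun s => LinearMap.mulRight F ((s⁻¹ : Matrix.SpecialLinearGroup (Fin n) F) : Matrix (Fin n) (Fin n) F)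
      map_one' := by
        ext x
        simp
      map_mul' := fun s t => by
        apply LinearMap.ext
        intro x
        change x * ((((s * t : ↥P) : Matrix.SpecialLinearGroup (Fin n) F)⁻¹ : Matrix.SpecialLinearGroup (Fin n) F) : Matrix (Fin n) (Fin n) F) =
          (x * _) * _
        rw [mul_assoc, Subgroup.coe_mul, _root_.mul_inv_rev, Matrix.SpecialLinearGroup.coe_mul] }
  obtain ⟨x₀, hx₀, hx₀0, hx₀f⟩ := exists_fixed hr hP hJT fl (by
    intro s x hx
    change ((s : Matrix.SpecialLinearGroup (Fin n) F) : Matrix (Fin n) (Fin n) F) * x ∈ _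
    have h1 : (((s : Matrix.SpecialLinearGroup (Fin n) F) : Matrix (Fin n) (Fin n) F) - 1) * x ∈ J * ⊤ :=
      Submodule.mul_mem_mul (JJ_mul_mem ((hPm _).1 s.2)) trivial
    have h2 := Submodule.add_mem _ h1 hx
    rwa [sub_mul, one_mul, sub_add_cancel] at h2)
  obtain ⟨y₀, hy₀, hy₀0, hy₀f⟩ := exists_fixed hr hP hTJ fr (by
    intro s x hx
    change x * ((s⁻¹ : Matrix.SpecialLinearGroup (Fin n) F) : Matrix (Fin n) (Fin n) F) ∈ _
    have h1 : x * (((s⁻¹ : Matrix.SpecialLinearGroup (Fin n) F) : Matrix (Fin n) (Fin n) F) - 1) ∈ ⊤ * J :=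
      Submodule.mul_mem_mul trivial (JJ_mul_mem ((hPm _).1 (P.inv_mem s.2)))
    have h2 := Submodule.add_mem _ h1 hx
    rwa [mul_sub, mul_one, sub_add_cancel] at h2)
  have hxr : x₀ ∈ rann J := by
    intro y hy
    rw [hJdef] at hy
    induction hy using Submodule.span_induction with
    | mem w hw =>
      obtain ⟨s, hs, rfl⟩ := hw
      have := hx₀f ⟨s, (hPm s).2 hs⟩
      change (s : Matrix (Fin n) (Fin n) F) * x₀ = x₀ at this
      rw [sub_mul, one_mul, this, sub_self]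
    | zero => rw [zero_mul]
    | add a b _ _ ha hb => rw [add_mul, ha, hb, add_zero]
    | smul c a _ ha => rw [smul_mul_assoc, ha, smul_zero]
  have hyl : y₀ ∈ lann J := by
    intro y hy
    rw [hJdef] at hy
    induction hy using Submodule.span_induction with
    | mem w hw =>
      obtain ⟨s, hs, rfl⟩ := hw
      have h1 := hy₀f ⟨s⁻¹, P.inv_mem ((hPm s).2 hs)⟩
      change y₀ * (((s⁻¹)⁻¹ : Matrix.SpecialLinearGroup (Fin n) F) : Matrix (Fin n) (Fin n) F) = y₀ at h1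
      rw [inv_inv] at h1
      rw [mul_sub, mul_one, h1, sub_self]
    | zero => rw [mul_zero]
    | add a b _ _ ha hb => rw [mul_add, ha, hb, add_zero]
    | smul c a _ ha => rw [mul_smul_comm, ha, smul_zero]
  -- `x₀ z y₀ ≠ 0` for some `z`
  obtain ⟨a, b, hab⟩ : ∃ a b, x₀ a b ≠ 0 := by
    by_contra hcon
    push Not at hcon
    exact hx₀0 (by ext a b; exact hcon a b)
  obtain ⟨c, d, hcd⟩ : ∃ a b, y₀ a b ≠ 0 := by
    by_contra hcon
    push Not at hcon
    exact hy₀0 (by ext a b; exact hcon a b)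
  rw [Submodule.ne_bot_iff]
  refine ⟨x₀ * vecMulVec (Pi.single b 1) (Pi.single c 1) * y₀, ?_, ?_⟩
  · refine ⟨⟨⟨?_, ?_⟩, ?_⟩, ?_⟩
    · have h1 : x₀ * vecMulVec (Pi.single b 1) (Pi.single c 1) * y₀ ∈ J * ⊤ * ⊤ :=
        Submodule.mul_mem_mul (by
          have := Submodule.mul_mem_mul hx₀ (Submodule.mem_top (x := vecMulVec (Pi.single b (1 : F)) (Pi.single c (1 : F))) (R := F))
          rw [mul_assoc] at this
          exact (mmr le_top) this) trivial
      rw [mul_assoc] at h1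
      exact (mmr le_top) h1
    · have h1 : x₀ * vecMulVec (Pi.single b 1) (Pi.single c 1) * y₀ ∈ ⊤ * (⊤ * J) :=
        Submodule.mul_mem_mul trivial hy₀
      rw [← mul_assoc] at h1
      exact (mml le_top) h1
    · intro y hy
      rw [← mul_assoc, ← mul_assoc, hxr y hy, zero_mul, zero_mul]
    · intro y hy
      rw [mul_assoc, hyl y hy, mul_zero]
  · intro h0
    have h1 := congrFun (congrFun h0 a) d
    rw [mul_vecMulVec, vecMulVec_mul, vecMulVec_apply, single_one_vecMul, mulVec_single_one, Matrix.zero_apply] at h1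
    rcases mul_eq_zero.1 h1 with h2 | h2
    · exact hab h2
    · exact hcd h2

end Cfsg.Agent.H801.Sims
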