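import Cfsg.Agent.H801.Sims.Tau

/-!
# The subspace `JJ X` attached to an `r`-subgroup `X` of `N`, characteristic `r`
-/

set_option autoImplicit false
set_option linter.unusedVariables false

namespace Cfsg.Agent.H801.Sims

open Matrix Cfsg.Agent.H607.TW Subgroup

universe u

variable {G : Type u} [Group G] {N A C : Subgroup G} {r : ℕ}
  {F : Type} [Field F] {n : ℕ} {K L J Q : Submodule F (Matrix (Fin n) (Fin n) F)}
  {τ τ' : Matrix (Fin n) (Fin n) F ≃+ Matrix (Fin n) (Fin n) F}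
  {π : Matrix.SpecialLinearGroup (Fin n) F →* G}

theorem mt_SL (s : Matrix.SpecialLinearGroup (Fin n) F) : mt (iSL n F) s = (s : Matrix (Fin n) (Fin n) F) := rfl

theorem ind_rel {g : G} (h : Ind (iSL n F) π g τ) (s : Matrix.SpecialLinearGroup (Fin n) F) :
    ∃ s' : Matrix.SpecialLinearGroup (Fin n) F, (s' : Matrix (Fin n) (Fin n) F) = τ (s : Matrix (Fin n) (Fin n) F) ∧
      (π s' = g * π s * g⁻¹ ∨ (π s')⁻¹ = g * π s * g⁻¹) := by
  rcases h with ⟨-, h⟩ | ⟨-, h⟩
  · obtain ⟨s', h1, h2⟩ := h s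
    exact ⟨s', h1, Or.inl h2⟩
  · obtain ⟨s', h1, h2⟩ := h s
    exact ⟨s', h1, Or.inr h2⟩

theorem exists_lift (hM : Model N (iSL n F) π) (g : G) : ∃ τ, Semi τ ∧ Ind (iSL n F) π g τ := by
  obtain ⟨B, σ, h | h⟩ := hM.lift g
  · exact ⟨_, tauP_semi B σ, h⟩
  · exact ⟨_, tauM_semi B σ, h⟩

theorem map_pow (h : Semi τ) (x : Matrix (Fin n) (Fin n) F) (m : ℕ) : τ (x ^ m) = τ x ^ m := by
  induction m with
  | zero => rw [pow_zero, pow_zero, h.one]
  | succ m ih =>
    rcases h.mul with hm | hm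
    · rw [pow_succ, pow_succ, hm, ih]
    · rw [pow_succ', pow_succ, hm, ih]

theorem ind_comp {g g' : G} (h : Ind (iSL n F) π g τ) (h' : Ind (iSL n F) π g' τ') :
    Ind (iSL n F) π (g' * g) (τ.trans τ') := by
  rcases h with ⟨hm, h⟩ | ⟨hm, h⟩ <;> rcases h' with ⟨hm', h'⟩ | ⟨hm', h'⟩
  · left
    refine ⟨fun x y => by rw [AddEquiv.trans_apply, AddEquiv.trans_apply, AddEquiv.trans_apply, hm, hm'], fun s => ?_⟩
    obtain ⟨s', h1, h2⟩ := h s
    obtain ⟨s'', h3, h4⟩ := h' s'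
    refine ⟨s'', by rw [h3, h1, AddEquiv.trans_apply], by rw [h4, h2]; group⟩
  · right
    refine ⟨fun x y => by rw [AddEquiv.trans_apply, AddEquiv.trans_apply, AddEquiv.trans_apply, hm, hm'], fun s => ?_⟩
    obtain ⟨s', h1, h2⟩ := h s
    obtain ⟨s'', h3, h4⟩ := h' s'
    refine ⟨s'', by rw [h3, h1, AddEquiv.trans_apply], by rw [h4, h2]; group⟩
  · right
    refine ⟨fun x y => by rw [AddEquiv.trans_apply, AddEquiv.trans_apply, AddEquiv.trans_apply, hm, hm'], fun s => ?_⟩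
    obtain ⟨s', h1, h2⟩ := h s
    obtain ⟨s'', h3, h4⟩ := h' s'
    refine ⟨s'', by rw [h3, h1, AddEquiv.trans_apply], ?_⟩
    have h5 : π s' = (g * π s * g⁻¹)⁻¹ := by rw [← h2, inv_inv]
    rw [h4, h5]; group
  · left
    refine ⟨fun x y => by rw [AddEquiv.trans_apply, AddEquiv.trans_apply, AddEquiv.trans_apply, hm, hm'], fun s => ?_⟩
    obtain ⟨s', h1, h2⟩ := h s
    obtain ⟨s'', h3, h4⟩ := h' s'
    refine ⟨s'', by rw [h3, h1, AddEquiv.trans_apply], ?_⟩
    have h5 : π s' = (g * π s * g⁻¹)⁻¹ := by rw [← h2, inv_inv]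
    have h6 : π s'' = (g' * π s' * g'⁻¹)⁻¹ := by rw [← h4, inv_inv]
    rw [h6, h5]; group

/-- surjectivity: the elements of `SL_n` come from elements of `SL_n` -/
theorem ind_surj [Finite F] {P : Matrix.SpecialLinearGroup (Fin n) F → Matrix.SpecialLinearGroup (Fin n) F → Prop}
    (h : ∀ s, ∃ s' : Matrix.SpecialLinearGroup (Fin n) F, mt (iSL n F) s' = τ (mt (iSL n F) s) ∧ P s s') :
    ∀ s' : Matrix.SpecialLinearGroup (Fin n) F, ∃ s, mt (iSL n F) s' = τ (mt (iSL n F) s) ∧ P s s' := by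
  choose f hf using h
  have hinj : Function.Injective f := by
    intro a b hab
    apply Subtype.ext
    apply τ.injective
    have h1 := (hf a).1
    have h2 := (hf b).1
    rw [hab] at h1
    exact h1.symm.trans h2
  have hfin : Finite (Matrix.SpecialLinearGroup (Fin n) F) := inferInstance
  intro s'
  obtain ⟨s, rfl⟩ := Finite.surjective_of_injective hinj s'
  exact ⟨s, hf s⟩

theorem ind_symm [Finite F] {g : G} (h : Ind (iSL n F) π g τ) : Ind (iSL n F) π g⁻¹ τ.symm := by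
  rcases h with ⟨hm, h⟩ | ⟨hm, h⟩
  · left
    refine ⟨fun x y => ?_, fun s' => ?_⟩
    · apply τ.injective
      rw [hm, AddEquiv.apply_symm_apply, AddEquiv.apply_symm_apply, AddEquiv.apply_symm_apply]
    · obtain ⟨s, h1, h2⟩ := ind_surj (P := fun s s' => π s' = g * π s * g⁻¹) h s'
      refine ⟨s, ?_, ?_⟩
      · rw [h1, AddEquiv.symm_apply_apply]
      · rw [h2]; group
  · right
    refine ⟨fun x y => ?_, fun s' => ?_⟩
    · apply τ.injective
      rw [hm, AddEquiv.apply_symm_apply, AddEquiv.apply_symm_apply, AddEquiv.apply_symm_apply]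
    · obtain ⟨s, h1, h2⟩ := ind_surj (P := fun s s' => (π s')⁻¹ = g * π s * g⁻¹) h s'
      refine ⟨s, ?_, ?_⟩
      · rw [h1, AddEquiv.symm_apply_apply]
      · have h3 : π s' = (g * π s * g⁻¹)⁻¹ := by rw [← h2, inv_inv]
        rw [h3]; group

/-- conjugation by an element of `SL_n` -/
theorem ind_conj (t : Matrix.SpecialLinearGroup (Fin n) F) : Ind (iSL n F) π (π t) (tauP (iSL n F t) 1) := by
  left
  refine ⟨tauP_mul _ _, fun s => ⟨t * s * t⁻¹, ?_, ?_⟩⟩
  · rw [tauP_apply]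
    change ((t * s * t⁻¹ : Matrix.SpecialLinearGroup (Fin n) F) : Matrix (Fin n) (Fin n) F) =
      (t : Matrix (Fin n) (Fin n) F) * (s : Matrix (Fin n) (Fin n) F) *
        ((t⁻¹ : Matrix.SpecialLinearGroup (Fin n) F) : Matrix (Fin n) (Fin n) F)
    rw [Matrix.SpecialLinearGroup.coe_mul, Matrix.SpecialLinearGroup.coe_mul]
  · rw [map_mul, map_mul, map_inv]

theorem tauP_conj (t : Matrix.SpecialLinearGroup (Fin n) F) (x : Matrix (Fin n) (Fin n) F) :
    tauP (iSL n F t) 1 x = (t : Matrix (Fin n) (Fin n) F) * x * ((t⁻¹ : Matrix.SpecialLinearGroup (Fin n) F) : Matrix (Fin n) (Fin n) F) := by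
  rw [tauP_apply, ← map_inv]
  rfl

/-- the `r`-elements over `X` -/
def Xh (π : Matrix.SpecialLinearGroup (Fin n) F →* G) (X : Subgroup G) (r : ℕ) :
    Set (Matrix.SpecialLinearGroup (Fin n) F) := {s | π s ∈ X ∧ ∃ k : ℕ, s ^ r ^ k = 1}

/-- the span of the `s - 1` -/
def JJ (π : Matrix.SpecialLinearGroup (Fin n) F →* G) (X : Subgroup G) (r : ℕ) :
    Submodule F (Matrix (Fin n) (Fin n) F) :=
  Submodule.span F {x | ∃ s ∈ Xh π X r, x = (s : Matrix (Fin n) (Fin n) F) - 1}

theorem JJ_mono {X Y : Subgroup G} (h : X ≤ Y) : JJ π X r ≤ JJ π Y r := by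
  apply Submodule.span_mono
  rintro _ ⟨s, hs, rfl⟩
  exact ⟨s, ⟨h hs.1, hs.2⟩, rfl⟩

theorem mem_Xh_of {g : G} {X : Subgroup G} (h : Semi τ) {s s' : Matrix.SpecialLinearGroup (Fin n) F}
    (hs : s ∈ Xh π X r) (h1 : (s' : Matrix (Fin n) (Fin n) F) = τ (s : Matrix (Fin n) (Fin n) F))
    (h2 : π s' = g * π s * g⁻¹ ∨ (π s')⁻¹ = g * π s * g⁻¹) : s' ∈ Xh π (X.map (MulAut.conj g).toMonoidHom) r := by
  obtain ⟨hsX, k, hk⟩ := hs
  refine ⟨?_, k, ?_⟩
  · have h3 : g * π s * g⁻¹ ∈ X.map (MulAut.conj g).toMonoidHom := ⟨π s, hsX, rfl⟩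
    rcases h2 with h2 | h2
    · rw [h2]; exact h3
    · rw [← h2] at h3; exact (inv_mem_iff (H := X.map (MulAut.conj g).toMonoidHom)).1 h3
  · apply Subtype.ext
    rw [Matrix.SpecialLinearGroup.coe_pow, Matrix.SpecialLinearGroup.coe_one, h1, ← map_pow h,
      ← Matrix.SpecialLinearGroup.coe_pow, hk, Matrix.SpecialLinearGroup.coe_one, h.one]

theorem img_JJ_le {g : G} {X : Subgroup G} (h : Semi τ) (hi : Ind (iSL n F) π g τ) :
    img τ (JJ π X r) ≤ JJ π (X.map (MulAut.conj g).toMonoidHom) r := by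
  rw [JJ, img_span h]
  apply Submodule.span_mono
  rintro _ ⟨_, ⟨s, hs, rfl⟩, rfl⟩
  obtain ⟨s', h1, h2⟩ := ind_rel hi s
  refine ⟨s', mem_Xh_of h hs h1 h2, ?_⟩
  rw [map_sub, h.one, h1]

theorem img_JJ [Finite F] {g : G} {X : Subgroup G} (h : Semi τ) (hi : Ind (iSL n F) π g τ) :
    img τ (JJ π X r) = JJ π (X.map (MulAut.conj g).toMonoidHom) r := by
  apply eq_of_card (img_JJ_le h hi)
  apply le_antisymm
  · have : Finite ↥(JJ π (X.map (MulAut.conj g).toMonoidHom) r) := inferInstance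
    exact Nat.card_mono (Set.toFinite _) (img_JJ_le h hi)
  · rw [card_img h, ← card_img (K := JJ π (X.map (MulAut.conj g).toMonoidHom) r) h.symm]
    have h1 : (X.map (MulAut.conj g).toMonoidHom).map (MulAut.conj g⁻¹).toMonoidHom = X := by
      rw [Subgroup.map_map]
      convert Subgroup.map_id X
      ext x
      simp [mul_assoc]
    have h2 := img_JJ_le (r := r) (X := X.map (MulAut.conj g).toMonoidHom) h.symm (ind_symm hi)
    rw [h1] at h2
    exact Nat.card_mono (Set.toFinite _) h2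

theorem map_conj_of_norm [Finite G] {X : Subgroup G} (hX : A ≤ normalizer (X : Set G)) {a : G} (ha : a ∈ A) :
    X.map (MulAut.conj a).toMonoidHom = X := by
  apply Subgroup.eq_of_le_of_card_ge
  · rintro _ ⟨x, hx, rfl⟩
    exact conj_mem_of_norm hX ha hx
  · rw [Subgroup.card_map_of_injective (MulAut.conj a).injective]

theorem img_JJ_of_norm [Finite F] [Finite G] {X : Subgroup G} (hX : A ≤ normalizer (X : Set G)) {a : G} (ha : a ∈ A) (h : Semi τ)
    (hi : Ind (iSL n F) π a τ) : img τ (JJ π X r) = JJ π X r := by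
  rw [img_JJ h hi, map_conj_of_norm hX ha]

/-- the stabilizer contains the preimage of `A` -/
theorem le_St (hinv : ∀ a ∈ A, ∀ τ, Semi τ → Ind (iSL n F) π a τ → img τ K = K) : A.comap π ≤ St K := by
  intro s hs
  have h1 := hinv (π s) hs _ (tauP_semi (iSL n F s) 1) (ind_conj s)
  intro x
  rw [← tauP_conj, ← mem_img' (K := K) (tauP_semi (iSL n F s) 1) (x := x), h1]

theorem St_ne_top (hM : Model N (iSL n F) π) (hK : Inn K) : St K ≠ ⊤ := by
  intro h
  have h1 : ∀ x : Matrix (Fin n) (Fin n) F, ∀ m ∈ U K, x *ᵥ m ∈ U K := by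
    intro x m hm
    have hx : x ∈ Submodule.span F (Set.range (mt (iSL n F))) := by rw [hM.span]; trivial
    induction hx using Submodule.span_induction with
    | mem w hw =>
      obtain ⟨s, rfl⟩ := hw
      exact inv_U s (by rw [h]; trivial) m hm
    | zero => rw [zero_mulVec]; exact (U K).zero_mem
    | add a b _ _ ha hb => rw [add_mulVec]; exact (U K).add_mem ha hb
    | smul c a _ ha => rw [smul_mulVec]; exact (U K).smul_mem c ha
  obtain ⟨m, hm, hm0⟩ := (U K).ne_bot_iff.1 hK.U_ne_bot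
  obtain ⟨φ, -, hφ⟩ := exists_sep (⊥ : Submodule F (Fin n → F)) (v := m) hm0
  apply hK.An_ne_top
  rw [eq_top_iff]
  intro v _
  apply hK.U_le
  have := h1 (vecMulVec v φ) m hm
  rwa [vm_mulVec, hφ, one_smul] at this

/-- the preimage of `A` is the stabilizer of every invariant square-zero inner ideal -/
theorem comap_eq_St [Finite G] [Finite F] (h : Loc N A r) (hM : Model N (iSL n F) π) (hK : Inn K)
    (hinv : ∀ a ∈ A, ∀ τ, Semi τ → Ind (iSL n F) π a τ → img τ K = K) : A.comap π = St K := by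
  apply le_antisymm (le_St hinv)
  rw [← Subgroup.map_le_iff_le_comap]
  apply h.le_of_norm'
  · rw [← hM.range]
    exact Subgroup.map_le_range _ _
  · intro hN
    apply St_ne_top hM hK
    rw [eq_top_iff]
    intro s _
    have h1 : π s ∈ (St K).map π := by rw [hN, ← hM.range]; exact ⟨s, rfl⟩
    obtain ⟨t, ht, hts⟩ := h1
    have h2 : π (t⁻¹ * s) = 1 := by rw [map_mul, map_inv, hts, inv_mul_cancel]
    obtain ⟨c, hc⟩ := (hM.ker _).1 h2
    have h3 : t⁻¹ * s ∈ St K := by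
      have h4 : ∀ x : Matrix (Fin n) (Fin n) F, ((t⁻¹ * s : Matrix.SpecialLinearGroup (Fin n) F) : Matrix (Fin n) (Fin n) F) * x *
          (((t⁻¹ * s)⁻¹ : Matrix.SpecialLinearGroup (Fin n) F) : Matrix (Fin n) (Fin n) F) = x := by
        intro x
        have h5 : ((t⁻¹ * s : Matrix.SpecialLinearGroup (Fin n) F) : Matrix (Fin n) (Fin n) F) * x =
            x * ((t⁻¹ * s : Matrix.SpecialLinearGroup (Fin n) F) : Matrix (Fin n) (Fin n) F) := by
          rw [← mt_SL, hc, smul_mul_assoc, one_mul, mul_smul_comm, mul_one]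
        rw [h5, mul_assoc, sl_mul_inv, mul_one]
      intro x
      rw [h4]
    have := (St K).mul_mem ht h3
    rwa [mul_inv_cancel_left] at this
  · apply le_normalizer_of_conj
    rintro a ha _ ⟨s, hs, rfl⟩
    obtain ⟨τ, hτ, hi⟩ := exists_lift hM a
    obtain ⟨s', h1, h2⟩ := ind_rel hi s
    have hK' := hinv a ha τ hτ hi
    have h3 : s' ∈ St K := by
      have h4 : τ (s : Matrix (Fin n) (Fin n) F) * τ ((s⁻¹ : Matrix.SpecialLinearGroup (Fin n) F) : Matrix (Fin n) (Fin n) F) = 1 := by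
        rcases hτ.mul with hm | hm
        · rw [← hm, sl_mul_inv, hτ.one]
        · rw [← hm, sl_inv_mul, hτ.one]
      have h5 : ((s'⁻¹ : Matrix.SpecialLinearGroup (Fin n) F) : Matrix (Fin n) (Fin n) F) =
          τ ((s⁻¹ : Matrix.SpecialLinearGroup (Fin n) F) : Matrix (Fin n) (Fin n) F) := by
        calc ((s'⁻¹ : Matrix.SpecialLinearGroup (Fin n) F) : Matrix (Fin n) (Fin n) F)
            = ((s'⁻¹ : Matrix.SpecialLinearGroup (Fin n) F) : Matrix (Fin n) (Fin n) F) *
              (τ (s : Matrix (Fin n) (Fin n) F) * τ ((s⁻¹ : Matrix.SpecialLinearGroup (Fin n) F) : Matrix (Fin n) (Fin n) F)) := by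
              rw [h4, mul_one]
          _ = _ := by rw [← h1, ← mul_assoc, sl_inv_mul, one_mul]
      have hs' := (St K).inv_mem hs
      apply mem_St_of
      · intro x hx
        rw [← hK', mem_img hτ] at hx
        obtain ⟨y, hy, rfl⟩ := hx
        rw [h1, h5, ← hK']
        rcases hτ.mul with hm | hm
        · rw [← hm, ← hm, mem_img' hτ]
          exact (hs y).2 hy
        · rw [← hm, ← hm, mem_img' hτ, ← mul_assoc]
          have := (hs' y).2 hy
          rwa [inv_inv] at this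
      · intro x hx
        rw [← hK', mem_img hτ] at hx
        obtain ⟨y, hy, rfl⟩ := hx
        rw [h1, h5, ← hK']
        rcases hτ.mul with hm | hm
        · rw [← hm, ← hm, mem_img' hτ]
          have := (hs' y).2 hy
          rwa [inv_inv] at this
        · rw [← hm, ← hm, mem_img' hτ, ← mul_assoc]
          exact (hs y).2 hy
    rcases h2 with h2 | h2
    · rw [← h2]; exact ⟨s', h3, rfl⟩
    · rw [← h2]; exact (Subgroup.inv_mem _ ⟨s', h3, rfl⟩)

end Cfsg.Agent.H801.Sims
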