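import Mathlib

/-!
# Square-zero inner ideals of a matrix algebra and their stabilizers in `SL_n(F)`

Used for S3694 (task T7). For a subspace `K` of `M_n(F)`: `U K = K V`, `An K` = the common kernel, `Ul K` = the span of the rows.
`Inn K`: `K ≠ 0`, `K² = 0`, `K M_n(F) K ≤ K`; such a `K` is `{x | x V ≤ U, x U' = 0}` for `U = U K ≤ U' = An K`.
`St K` is the normalizer of `K` in `SL_n(F)` (the stabilizer of `U ≤ U'`).
-/

set_option autoImplicit false

namespace Cfsg.Agent.H801.Sims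

open Matrix

variable {F : Type*} [Field F] {n : ℕ}

theorem vm_mulVec (u v w : Fin n → F) : vecMulVec u v *ᵥ w = (v ⬝ᵥ w) • u := by
  ext i
  simp only [mulVec, dotProduct, vecMulVec_apply, Pi.smul_apply, smul_eq_mul, Finset.sum_mul]
  exact Finset.sum_congr rfl fun j _ => by ring

theorem vm_mul_vm (u v w x : Fin n → F) : vecMulVec u v * vecMulVec w x = (v ⬝ᵥ w) • vecMulVec u x := by
  ext i j
  simp only [mul_apply, dotProduct, vecMulVec_apply, Matrix.smul_apply, smul_eq_mul, Finset.sum_mul]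
  exact Finset.sum_congr rfl fun j _ => by ring

/-- separation by a functional -/
theorem exists_sep (M : Submodule F (Fin n → F)) {v : Fin n → F} (hv : v ∉ M) :
    ∃ φ : Fin n → F, (∀ m ∈ M, φ ⬝ᵥ m = 0) ∧ φ ⬝ᵥ v = 1 := by
  obtain ⟨f, hfv, hf⟩ := Submodule.exists_le_ker_of_notMem hv
  have hfx : ∀ x : Fin n → F, (fun i => f (Pi.single i 1)) ⬝ᵥ x = f x := by
    intro x
    rw [LinearMap.pi_apply_eq_sum_univ f x]
    simp only [dotProduct]
    refine Finset.sum_congr rfl fun i _ => ?_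
    rw [smul_eq_mul, mul_comm]
    congr 2
    ext j
    rw [Pi.single_apply]
    simp only [eq_comm]
  refine ⟨(f v)⁻¹ • fun i => f (Pi.single i 1), fun m hm => ?_, ?_⟩
  · rw [smul_dotProduct, hfx, LinearMap.mem_ker.1 (hf hm), smul_zero]
  · rw [smul_dotProduct, hfx, smul_eq_mul, inv_mul_cancel₀ hfv]

/-- `K V` -/
def U (K : Submodule F (Matrix (Fin n) (Fin n) F)) : Submodule F (Fin n → F) :=
  Submodule.span F {w | ∃ x ∈ K, ∃ v, w = x *ᵥ v}

/-- `V* K` -/
def Ul (K : Submodule F (Matrix (Fin n) (Fin n) F)) : Submodule F (Fin n → F) :=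
  Submodule.span F {w | ∃ x ∈ K, ∃ v, w = v ᵥ* x}

/-- the annihilator of `K` in `V` -/
def An (K : Submodule F (Matrix (Fin n) (Fin n) F)) : Submodule F (Fin n → F) where
  carrier := {v | ∀ x ∈ K, x *ᵥ v = 0}
  add_mem' := by
    intro a b ha hb x hx
    rw [mulVec_add, ha x hx, hb x hx, add_zero]
  zero_mem' := by
    intro x _
    rw [mulVec_zero]
  smul_mem' := by
    intro c a ha x hx
    rw [mulVec_smul, ha x hx, smul_zero]

variable {K L J : Submodule F (Matrix (Fin n) (Fin n) F)}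

theorem mem_U {x : Matrix (Fin n) (Fin n) F} (hx : x ∈ K) (v : Fin n → F) : x *ᵥ v ∈ U K :=
  Submodule.subset_span ⟨x, hx, v, rfl⟩

theorem mem_Ul {x : Matrix (Fin n) (Fin n) F} (hx : x ∈ K) (v : Fin n → F) : v ᵥ* x ∈ Ul K :=
  Submodule.subset_span ⟨x, hx, v, rfl⟩

theorem mem_An {v : Fin n → F} : v ∈ An K ↔ ∀ x ∈ K, x *ᵥ v = 0 := Iff.rfl

/-- rows and annihilator -/
theorem Ul_An {φ v : Fin n → F} (hφ : φ ∈ Ul K) (hv : v ∈ An K) : φ ⬝ᵥ v = 0 := by
  induction hφ using Submodule.span_induction with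
  | mem w hw =>
    obtain ⟨x, hx, z, rfl⟩ := hw
    rw [← dotProduct_mulVec, hv x hx, dotProduct_zero]
  | zero => rw [zero_dotProduct]
  | add a b _ _ ha hb => rw [add_dotProduct, ha, hb, add_zero]
  | smul c a _ ha => rw [smul_dotProduct, ha, smul_zero]

theorem mem_Ul_of {φ : Fin n → F} (h : ∀ v ∈ An K, φ ⬝ᵥ v = 0) : φ ∈ Ul K := by
  by_contra hφ
  obtain ⟨v, hv, hv1⟩ := exists_sep _ hφ
  have : v ∈ An K := by
    intro x hx
    ext i
    have h1 := hv _ (mem_Ul hx (Pi.single i 1))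
    rw [dotProduct_comm, single_one_vecMul] at h1
    exact h1
  rw [dotProduct_comm] at hv1
  rw [h v this] at hv1
  exact zero_ne_one hv1

theorem mem_An_of {v : Fin n → F} (h : ∀ φ ∈ Ul K, φ ⬝ᵥ v = 0) : v ∈ An K := by
  intro x hx
  ext i
  have h1 := h _ (mem_Ul hx (Pi.single i 1))
  rw [single_one_vecMul] at h1
  exact h1

theorem mem_U_of {v : Fin n → F} (h : ∀ φ : Fin n → F, (∀ u ∈ U K, φ ⬝ᵥ u = 0) → φ ⬝ᵥ v = 0) : v ∈ U K := by
  by_contra hv
  obtain ⟨φ, h1, h2⟩ := exists_sep _ hv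
  rw [h φ h1] at h2
  exact zero_ne_one h2

/-- a square-zero inner ideal -/
structure Inn (K : Submodule F (Matrix (Fin n) (Fin n) F)) : Prop where
  ne : K ≠ ⊥
  sq : ∀ x ∈ K, ∀ y ∈ K, x * y = 0
  inn : ∀ x ∈ K, ∀ r, ∀ y ∈ K, x * r * y ∈ K

namespace Inn

theorem U_le (hK : Inn K) : U K ≤ An K := by
  rw [U, Submodule.span_le]
  rintro _ ⟨x, hx, v, rfl⟩ y hy
  rw [mulVec_mulVec, hK.sq y hy x hx, zero_mulVec]

theorem vm_mem (hK : Inn K) {u φ : Fin n → F} (hu : u ∈ U K) (hφ : φ ∈ Ul K) : vecMulVec u φ ∈ K := by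
  induction hu using Submodule.span_induction with
  | mem w hw =>
    obtain ⟨x, hx, z, rfl⟩ := hw
    induction hφ using Submodule.span_induction with
    | mem w' hw' =>
      obtain ⟨y, hy, z', rfl⟩ := hw'
      rw [← mul_vecMulVec, ← vecMulVec_mul, ← mul_assoc]
      exact hK.inn x hx _ y hy
    | zero => rw [vecMulVec_zero]; exact K.zero_mem
    | add a b _ _ ha hb => rw [vecMulVec_add]; exact K.add_mem ha hb
    | smul c a _ ha => rw [vecMulVec_smul]; exact K.smul_mem c ha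
  | zero => rw [zero_vecMulVec]; exact K.zero_mem
  | add a b _ _ ha hb => rw [add_vecMulVec]; exact K.add_mem ha hb
  | smul c a _ ha => rw [smul_vecMulVec]; exact K.smul_mem c ha

end Inn

/-- a matrix with columns in `U'` and rows in `U''` lies in any subspace containing the corresponding matrices of rank one -/
theorem mem_of_vm {P Q : Submodule F (Fin n → F)} (h : ∀ u ∈ P, ∀ φ ∈ Q, vecMulVec u φ ∈ J)
    {x : Matrix (Fin n) (Fin n) F} (hx : ∀ v, x *ᵥ v ∈ P) (hx' : ∀ v, v ᵥ* x ∈ Q) : x ∈ J := by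
  obtain ⟨g, hg⟩ := LinearMap.exists_leftInverse_of_injective P.subtype (by rw [Submodule.ker_subtype])
  have he : ∀ u ∈ P, (g u : Fin n → F) = u := fun u hu => by
    have := LinearMap.congr_fun hg ⟨u, hu⟩
    exact congrArg Subtype.val this
  set e : Matrix (Fin n) (Fin n) F := LinearMap.toMatrix' (P.subtype ∘ₗ g) with hedef
  have hev : ∀ v, e *ᵥ v = g v := fun v => by
    rw [hedef, ← Matrix.toLin'_apply, Matrix.toLin'_toMatrix']; rfl
  have hex : e * x = x := by
    apply Matrix.toLin'.injective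
    ext1 v
    apply LinearMap.ext
    intro c
    simp only [LinearMap.comp_apply, Matrix.toLin'_apply, ← Matrix.mulVec_mulVec]
    rw [hev, he _ (hx _)]
  have hsum : x = ∑ i, vecMulVec (Pi.single i 1) (x i) := by
    ext a b
    rw [Matrix.sum_apply]
    simp only [vecMulVec_apply, Pi.single_apply, ite_mul, one_mul, zero_mul]
    rw [Finset.sum_ite_eq Finset.univ a, if_pos (Finset.mem_univ _)]
  rw [← hex, hsum, Finset.mul_sum]
  refine J.sum_mem fun i _ => ?_
  rw [mul_vecMulVec]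
  refine h _ ?_ _ ?_
  · rw [hev]; exact (g _).2
  · have := hx' (Pi.single i 1)
    rwa [single_one_vecMul] at this

theorem Inn.mem_iff (hK : Inn K) {x : Matrix (Fin n) (Fin n) F} :
    x ∈ K ↔ (∀ v, x *ᵥ v ∈ U K) ∧ ∀ v ∈ An K, x *ᵥ v = 0 := by
  constructor
  · exact fun hx => ⟨fun v => mem_U hx v, fun v hv => hv x hx⟩
  · rintro ⟨h1, h2⟩
    refine mem_of_vm (P := U K) (Q := Ul K) (fun u hu φ hφ => hK.vm_mem hu hφ) h1 fun v => ?_
    apply mem_Ul_of
    intro w hw
    rw [← dotProduct_mulVec, h2 w hw, dotProduct_zero]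

theorem Inn.eq_of (hK : Inn K) (hL : Inn L) (h1 : U K = U L) (h2 : An K = An L) : K = L := by
  ext x
  rw [hK.mem_iff, hL.mem_iff, h1, h2]

end Cfsg.Agent.H801.Sims
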