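import Cfsg.Agent.H801.Sims.Stab

/-!
# The square-zero inner ideal `KK J` attached to a subspace `J`

`KK J = J M ⊓ M J ⊓ {x | J x = 0} ⊓ {x | x J = 0}`, `M = M_n(F)`.
-/

set_option autoImplicit false
set_option linter.unusedVariables false

namespace Cfsg.Agent.H801.Sims

open Matrix

variable {F : Type*} [Field F] {n : ℕ} {K L J Q : Submodule F (Matrix (Fin n) (Fin n) F)}

theorem mem_mul_top {x : Matrix (Fin n) (Fin n) F} : x ∈ J * ⊤ ↔ ∀ v, x *ᵥ v ∈ U J := by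
  constructor
  · intro hx v
    induction hx using Submodule.mul_induction_on' with
    | mem_mul_mem y hy z hz => rw [← mulVec_mulVec]; exact mem_U hy _
    | add a _ b _ ha hb => rw [add_mulVec]; exact (U J).add_mem ha hb
  · intro h
    refine mem_of_vm (P := U J) (Q := ⊤) (fun u hu φ _ => ?_) h fun _ => trivial
    induction hu using Submodule.span_induction with
    | mem w hw =>
      obtain ⟨y, hy, z, rfl⟩ := hw
      rw [← mul_vecMulVec]
      exact Submodule.mul_mem_mul hy trivial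
    | zero => rw [zero_vecMulVec]; exact Submodule.zero_mem _
    | add a b _ _ ha hb => rw [add_vecMulVec]; exact Submodule.add_mem _ ha hb
    | smul c a _ ha => rw [smul_vecMulVec]; exact Submodule.smul_mem _ c ha

theorem mem_top_mul {x : Matrix (Fin n) (Fin n) F} : x ∈ (⊤ : Submodule F _) * J ↔ ∀ v ∈ An J, x *ᵥ v = 0 := by
  constructor
  · intro hx v hv
    induction hx using Submodule.mul_induction_on' with
    | mem_mul_mem y hy z hz => rw [← mulVec_mulVec, hv z hz, mulVec_zero]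
    | add a _ b _ ha hb => rw [add_mulVec, ha, hb, add_zero]
  · intro h
    refine mem_of_vm (P := ⊤) (Q := Ul J) (fun u _ φ hφ => ?_) (fun _ => trivial) fun v => ?_
    · induction hφ using Submodule.span_induction with
      | mem w hw =>
        obtain ⟨y, hy, z, rfl⟩ := hw
        rw [← vecMulVec_mul]
        exact Submodule.mul_mem_mul trivial hy
      | zero => rw [vecMulVec_zero]; exact Submodule.zero_mem _
      | add a b _ _ ha hb => rw [vecMulVec_add]; exact Submodule.add_mem _ ha hb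
      | smul c a _ ha => rw [vecMulVec_smul]; exact Submodule.smul_mem _ c ha
    · apply mem_Ul_of
      intro w hw
      rw [← dotProduct_mulVec, h w hw, dotProduct_zero]

/-- right annihilator -/
def rann (J : Submodule F (Matrix (Fin n) (Fin n) F)) : Submodule F (Matrix (Fin n) (Fin n) F) where
  carrier := {x | ∀ y ∈ J, y * x = 0}
  add_mem' := by intro a b ha hb y hy; rw [mul_add, ha y hy, hb y hy, add_zero]
  zero_mem' := by intro y _; rw [mul_zero]
  smul_mem' := by intro c a ha y hy; rw [mul_smul_comm, ha y hy, smul_zero]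

/-- left annihilator -/
def lann (J : Submodule F (Matrix (Fin n) (Fin n) F)) : Submodule F (Matrix (Fin n) (Fin n) F) where
  carrier := {x | ∀ y ∈ J, x * y = 0}
  add_mem' := by intro a b ha hb y hy; rw [add_mul, ha y hy, hb y hy, add_zero]
  zero_mem' := by intro y _; rw [zero_mul]
  smul_mem' := by intro c a ha y hy; rw [smul_mul_assoc, ha y hy, smul_zero]

theorem ext_mulVec {x y : Matrix (Fin n) (Fin n) F} (h : ∀ v, x *ᵥ v = y *ᵥ v) : x = y := by
  apply Matrix.toLin'.injective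
  apply LinearMap.ext
  intro v
  rw [Matrix.toLin'_apply, Matrix.toLin'_apply, h v]

theorem mem_rann {x : Matrix (Fin n) (Fin n) F} : x ∈ rann J ↔ ∀ v, x *ᵥ v ∈ An J := by
  constructor
  · intro hx v y hy
    rw [mulVec_mulVec, hx y hy, zero_mulVec]
  · intro h y hy
    apply ext_mulVec
    intro v
    rw [← mulVec_mulVec, h v y hy, zero_mulVec]

theorem mem_lann {x : Matrix (Fin n) (Fin n) F} : x ∈ lann J ↔ ∀ v ∈ U J, x *ᵥ v = 0 := by
  constructor
  · intro hx v hv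
    induction hv using Submodule.span_induction with
    | mem w hw =>
      obtain ⟨y, hy, z, rfl⟩ := hw
      rw [mulVec_mulVec, hx y hy, zero_mulVec]
    | zero => rw [mulVec_zero]
    | add a b _ _ ha hb => rw [mulVec_add, ha, hb, add_zero]
    | smul c a _ ha => rw [mulVec_smul, ha, smul_zero]
  · intro h y hy
    apply ext_mulVec
    intro v
    rw [← mulVec_mulVec, h _ (mem_U hy v), zero_mulVec]

/-- the inner ideal attached to `J` -/
def KK (J : Submodule F (Matrix (Fin n) (Fin n) F)) : Submodule F (Matrix (Fin n) (Fin n) F) :=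
  J * ⊤ ⊓ ⊤ * J ⊓ rann J ⊓ lann J

def K1 (J : Submodule F (Matrix (Fin n) (Fin n) F)) : Submodule F (Matrix (Fin n) (Fin n) F) :=
  rann J ⊓ ⊤ * J

def K2 (J : Submodule F (Matrix (Fin n) (Fin n) F)) : Submodule F (Matrix (Fin n) (Fin n) F) :=
  J * ⊤ ⊓ lann J

theorem KK_le_K1 : KK J ≤ K1 J := fun _ hx => ⟨hx.1.2, hx.1.1.2⟩

theorem KK_le_K2 : KK J ≤ K2 J := fun _ hx => ⟨hx.1.1.1, hx.2⟩

theorem mem_KK {x : Matrix (Fin n) (Fin n) F} : x ∈ KK J ↔
    (∀ v, x *ᵥ v ∈ U J) ∧ (∀ v, x *ᵥ v ∈ An J) ∧ (∀ v ∈ U J, x *ᵥ v = 0) ∧ ∀ v ∈ An J, x *ᵥ v = 0 := by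
  rw [← mem_mul_top, ← mem_rann, ← mem_lann, ← mem_top_mul]
  constructor
  · rintro ⟨⟨⟨h1, h2⟩, h3⟩, h4⟩; exact ⟨h1, h3, h4, h2⟩
  · rintro ⟨h1, h3, h4, h2⟩; exact ⟨⟨⟨h1, h2⟩, h3⟩, h4⟩

theorem mem_K1 {x : Matrix (Fin n) (Fin n) F} : x ∈ K1 J ↔ (∀ v, x *ᵥ v ∈ An J) ∧ ∀ v ∈ An J, x *ᵥ v = 0 := by
  rw [← mem_rann, ← mem_top_mul]; rfl

theorem mem_K2 {x : Matrix (Fin n) (Fin n) F} : x ∈ K2 J ↔ (∀ v, x *ᵥ v ∈ U J) ∧ ∀ v ∈ U J, x *ᵥ v = 0 := by
  rw [← mem_lann, ← mem_mul_top]; rfl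

theorem inn_K1 (h : K1 J ≠ ⊥) : Inn (K1 J) := by
  refine ⟨h, fun x hx y hy => ?_, fun x hx r y hy => ?_⟩
  · rw [mem_K1] at hx hy
    apply ext_mulVec
    intro v
    rw [← mulVec_mulVec, hx.2 _ (hy.1 v), zero_mulVec]
  · rw [mem_K1] at hx hy ⊢
    refine ⟨fun v => ?_, fun v hv => ?_⟩
    · rw [← mulVec_mulVec, ← mulVec_mulVec]; exact hx.1 _
    · rw [← mulVec_mulVec, hy.2 v hv, mulVec_zero]

theorem inn_K2 (h : K2 J ≠ ⊥) : Inn (K2 J) := by
  refine ⟨h, fun x hx y hy => ?_, fun x hx r y hy => ?_⟩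
  · rw [mem_K2] at hx hy
    apply ext_mulVec
    intro v
    rw [← mulVec_mulVec, hx.2 _ (hy.1 v), zero_mulVec]
  · rw [mem_K2] at hx hy ⊢
    refine ⟨fun v => ?_, fun v hv => ?_⟩
    · rw [← mulVec_mulVec, ← mulVec_mulVec]; exact hx.1 _
    · rw [← mulVec_mulVec, hy.2 v hv, mulVec_zero]

theorem inn_KK (h : KK J ≠ ⊥) : Inn (KK J) := by
  refine ⟨h, fun x hx y hy => ?_, fun x hx r y hy => ?_⟩
  · rw [mem_KK] at hx hy
    apply ext_mulVec
    intro v
    rw [← mulVec_mulVec, hx.2.2.1 _ (hy.1 v), zero_mulVec]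
  · rw [mem_KK] at hx hy ⊢
    refine ⟨fun v => ?_, fun v => ?_, fun v hv => ?_, fun v hv => ?_⟩
    · rw [← mulVec_mulVec, ← mulVec_mulVec]; exact hx.1 _
    · rw [← mulVec_mulVec, ← mulVec_mulVec]; exact hx.2.1 _
    · rw [← mulVec_mulVec, hy.2.2.1 v hv, mulVec_zero]
    · rw [← mulVec_mulVec, hy.2.2.2 v hv, mulVec_zero]

theorem exists_row (hJ : J ≠ ⊥) : ∃ ψ ∈ Ul J, ∃ w, ψ ⬝ᵥ w = 1 := by
  obtain ⟨y, hy, hy0⟩ := J.ne_bot_iff.1 hJ
  obtain ⟨i, j, hij⟩ : ∃ i j, y i j ≠ 0 := by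
    by_contra hcon
    push Not at hcon
    exact hy0 (by ext i j; exact hcon i j)
  refine ⟨Pi.single i 1 ᵥ* y, mem_Ul hy _, Pi.single j (y i j)⁻¹, ?_⟩
  rw [single_one_vecMul, dotProduct_single]
  exact mul_inv_cancel₀ hij

/-- in case all three inner ideals agree -/
theorem U_eq_An (h0 : KK J ≠ ⊥) (h1 : K1 J = KK J) (h2 : K2 J = KK J) : U J = An J := by
  have hJ : J ≠ ⊥ := by
    rintro rfl
    apply h0
    rw [eq_bot_iff]
    intro x hx
    have := hx.1.1.1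
    rwa [Submodule.bot_mul] at this
  obtain ⟨ψ, hψ, w, hw⟩ := exists_row hJ
  obtain ⟨φ, hφ, z, hz⟩ := exists_row h0
  apply le_antisymm
  · intro v hv
    have : vecMulVec v φ ∈ KK J := by
      rw [← h2, mem_K2]
      refine ⟨fun a => ?_, fun a ha => ?_⟩
      · rw [vm_mulVec]; exact (U J).smul_mem _ hv
      · rw [vm_mulVec, Ul_An hφ (fun x hx => (mem_KK.1 hx).2.2.1 a ha), zero_smul]
    have := (mem_KK.1 this).2.1 z
    rwa [vm_mulVec, hz, one_smul] at this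
  · intro v hv
    have : vecMulVec v ψ ∈ KK J := by
      rw [← h1, mem_K1]
      refine ⟨fun a => ?_, fun a ha => ?_⟩
      · rw [vm_mulVec]; exact (An J).smul_mem _ hv
      · rw [vm_mulVec, Ul_An hψ ha, zero_smul]
    have := (mem_KK.1 this).1 w
    rwa [vm_mulVec, hw, one_smul] at this

theorem U_mono (h : J ≤ Q) : U J ≤ U Q := by
  apply Submodule.span_mono
  rintro _ ⟨x, hx, v, rfl⟩
  exact ⟨x, h hx, v, rfl⟩

theorem An_anti (h : J ≤ Q) : An Q ≤ An J := fun v hv x hx => hv x (h hx)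

theorem KK_le_of_An_le (h : An J ≤ U J) (hJQ : J ≤ Q) : KK Q ≤ KK J := by
  intro x hx
  rw [mem_KK] at hx ⊢
  refine ⟨fun v => h (An_anti hJQ (hx.2.1 v)), fun v => An_anti hJQ (hx.2.1 v), fun v hv => hx.2.2.1 v (U_mono hJQ hv),
    fun v hv => hx.2.2.1 v (U_mono hJQ (h hv))⟩

theorem KK_eq_of_U_eq_An (h1 : U J = An J) (h2 : U Q = An Q) (hJQ : J ≤ Q) : KK J = KK Q := by
  have e : U J = U Q := le_antisymm (U_mono hJQ) (by rw [h2, h1]; exact An_anti hJQ)
  have e' : An J = An Q := by rw [← h1, ← h2, e]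
  ext x
  rw [mem_KK, mem_KK, e, e']

/-- if `St (KK J)` normalizes `J` then `U J` and `An J` are comparable -/
theorem comparable (h0 : KK J ≠ ⊥) (hst : St (KK J) ≤ St J) : An J ≤ U J ∨ U J ≤ An J := by
  have hK := inn_KK h0
  have hJ : J ≠ ⊥ := by
    rintro rfl
    apply h0
    rw [eq_bot_iff]
    intro x hx
    have := hx.1.1.1
    rwa [Submodule.bot_mul] at this
  obtain ⟨ψ, hψ, w, hw⟩ := exists_row hJ
  obtain ⟨φ, hφ, z, hz⟩ := exists_row h0
  have a := hK.inv_cases (M := U J) (fun s hs => inv_U s (hst hs))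
  have b := hK.inv_cases (M := An J) (fun s hs => inv_An s (hst hs))
  have hKU : U (KK J) ≤ U J := by
    rw [U, Submodule.span_le]
    rintro _ ⟨x, hx, v, rfl⟩
    exact (mem_KK.1 hx).1 v
  have hKA : U (KK J) ≤ An J := by
    rw [U, Submodule.span_le]
    rintro _ ⟨x, hx, v, rfl⟩
    exact (mem_KK.1 hx).2.1 v
  have hAU : U J ≤ An (KK J) := fun v hv x hx => (mem_KK.1 hx).2.2.1 v hv
  have hAA : An J ≤ An (KK J) := fun v hv x hx => (mem_KK.1 hx).2.2.2 v hv
  have k1 := hK.U_ne_bot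
  have k2 := hK.An_ne_top
  rcases a with h | h | h | h
  · exact absurd (le_bot_iff.1 (h ▸ hKU)) k1
  · right; rw [h]; exact hKA
  · left; rw [h]; exact hAA
  · exact absurd (top_le_iff.1 (h ▸ hAU)) k2

theorem le_KK (h : U J ≤ An J) : J ≤ KK J := by
  intro x hx
  rw [mem_KK]
  exact ⟨fun v => mem_U hx v, fun v => h (mem_U hx v), fun v hv => h hv x hx, fun v hv => hv x hx⟩

/-- a nonzero subspace of `K` normalized by `St K` is `K` -/
theorem Inn.le_of_St (hK : Inn K) (hJ0 : J ≠ ⊥) (hJK : J ≤ K) (hst : St K ≤ St J) : K ≤ J := by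
  -- closure under rank one matrices, first the nilpotent ones
  have a1 : ∀ u ∈ U K, ∀ φ : Fin n → F, φ ⬝ᵥ u = 0 → ∀ j ∈ J, vecMulVec u (φ ᵥ* j) ∈ J := by
    intro u hu φ h j hj
    have h1 := (hst (hK.tv_mem₁ h hu) j).2 hj
    rw [tv_inv, coe_tv, add_mul, one_mul, mul_sub, mul_one, add_mul, mul_vecMulVec,
      hK.U_le hu j (hJK hj), zero_vecMulVec, mul_assoc, mul_vecMulVec, hK.U_le hu j (hJK hj), zero_vecMulVec, mul_zero,
      add_zero, sub_zero, vecMulVec_mul] at h1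
    have := J.sub_mem h1 hj
    rwa [add_sub_cancel_left] at this
  have a2 : ∀ ψ ∈ Ul K, ∀ v : Fin n → F, ψ ⬝ᵥ v = 0 → ∀ j ∈ J, vecMulVec (j *ᵥ v) ψ ∈ J := by
    intro ψ hψ v h j hj
    have h1 := (hst (hK.tv_mem₂ h hψ) j).2 hj
    rw [tv_inv, coe_tv, add_mul, one_mul, vecMulVec_mul, hK.Ul_vecMul hψ (hJK hj), vecMulVec_zero, add_zero, mul_sub, mul_one,
      mul_vecMulVec] at h1
    have := J.sub_mem hj h1
    rwa [sub_sub_cancel] at this
  have b1 : ∀ u ∈ U K, ∀ φ : Fin n → F, ∀ j ∈ J, vecMulVec u (φ ᵥ* j) ∈ J := by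
    intro u hu φ j hj
    by_cases h0 : φ ⬝ᵥ u = 0
    · exact a1 u hu φ h0 j hj
    by_cases h1 : ∃ w ∈ U K, w ≠ 0 ∧ φ ⬝ᵥ w = 0
    · obtain ⟨w, hw, hw0, hφw⟩ := h1
      have hwu : w ∉ Submodule.span F {u} := by
        intro h
        obtain ⟨c, rfl⟩ := Submodule.mem_span_singleton.1 h
        rw [dotProduct_smul, smul_eq_mul] at hφw
        rcases mul_eq_zero.1 hφw with hc | hc
        · exact hw0 (by rw [hc, zero_smul])
        · exact h0 hc
      obtain ⟨φ₁, h2, h3⟩ := exists_sep _ hwu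
      have h4 := a1 w hw φ hφw j hj
      have h5 := a1 u hu φ₁ (h2 u (Submodule.mem_span_singleton_self u)) _ h4
      rwa [vecMul_vecMulVec, h3, one_smul] at h5
    · push Not at h1
      have : vecMulVec u (φ ᵥ* j) = (φ ⬝ᵥ u) • j := by
        apply ext_mulVec
        intro v
        rw [vm_mulVec, smul_mulVec, ← dotProduct_mulVec]
        by_contra hne
        refine h1 ((φ ⬝ᵥ (j *ᵥ v)) • u - (φ ⬝ᵥ u) • (j *ᵥ v)) ?_ (sub_ne_zero.2 hne) ?_
        · exact (U K).sub_mem ((U K).smul_mem _ hu) ((U K).smul_mem _ (mem_U (hJK hj) v))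
        · rw [dotProduct_sub, dotProduct_smul, dotProduct_smul, smul_eq_mul, smul_eq_mul, mul_comm, sub_self]
      rw [this]
      exact J.smul_mem _ hj
  have b2 : ∀ ψ ∈ Ul K, ∀ v : Fin n → F, ∀ j ∈ J, vecMulVec (j *ᵥ v) ψ ∈ J := by
    intro ψ hψ v j hj
    by_cases h0 : ψ ⬝ᵥ v = 0
    · exact a2 ψ hψ v h0 j hj
    by_cases h1 : ∃ χ ∈ Ul K, χ ≠ 0 ∧ χ ⬝ᵥ v = 0
    · obtain ⟨χ, hχ, hχ0, hχv⟩ := h1
      have hχψ : χ ∉ Submodule.span F {ψ} := by
        intro h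
        obtain ⟨c, rfl⟩ := Submodule.mem_span_singleton.1 h
        rw [smul_dotProduct, smul_eq_mul] at hχv
        rcases mul_eq_zero.1 hχv with hc | hc
        · exact hχ0 (by rw [hc, zero_smul])
        · exact h0 hc
      obtain ⟨v₁, h2, h3⟩ := exists_sep _ hχψ
      rw [dotProduct_comm] at h3
      have h2' := h2 ψ (Submodule.mem_span_singleton_self ψ)
      rw [dotProduct_comm] at h2'
      have h4 := a2 χ hχ v hχv j hj
      have h5 := a2 ψ hψ v₁ h2' _ h4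
      rwa [vm_mulVec, h3, one_smul] at h5
    · push Not at h1
      have hrow : ∀ z, (ψ ⬝ᵥ v) • (z ᵥ* j) = ((z ᵥ* j) ⬝ᵥ v) • ψ := by
        intro z
        by_contra hne
        refine h1 ((ψ ⬝ᵥ v) • (z ᵥ* j) - ((z ᵥ* j) ⬝ᵥ v) • ψ) ?_ (sub_ne_zero.2 hne) ?_
        · exact (Ul K).sub_mem ((Ul K).smul_mem _ (mem_Ul (hJK hj) z)) ((Ul K).smul_mem _ hψ)
        · rw [sub_dotProduct, smul_dotProduct, smul_dotProduct, smul_eq_mul, smul_eq_mul, mul_comm, sub_self]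
      have : vecMulVec (j *ᵥ v) ψ = (ψ ⬝ᵥ v) • j := by
        ext a b
        have := congrFun (hrow (Pi.single a 1)) b
        rw [single_one_vecMul] at this
        simp only [Pi.smul_apply, smul_eq_mul] at this
        rw [vecMulVec_apply, Matrix.smul_apply, smul_eq_mul]
        exact this.symm
      rw [this]
      exact J.smul_mem _ hj
  obtain ⟨ψ₀, hψ₀, w, hw⟩ := exists_row hJ0
  -- find `j`, `φ`, `v` with `φ j v = 1`
  obtain ⟨j, hj, φ, v, hφ⟩ : ∃ j ∈ J, ∃ φ v : Fin n → F, (φ ᵥ* j) ⬝ᵥ v = 1 := by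
    obtain ⟨y, hy, hy0⟩ := J.ne_bot_iff.1 hJ0
    obtain ⟨a, b, hab⟩ : ∃ a b, y a b ≠ 0 := by
      by_contra hcon
      push Not at hcon
      exact hy0 (by ext a b; exact hcon a b)
    refine ⟨y, hy, Pi.single a 1, Pi.single b (y a b)⁻¹, ?_⟩
    rw [single_one_vecMul, dotProduct_single]
    exact mul_inv_cancel₀ hab
  intro x hx
  refine mem_of_vm (P := U K) (Q := Ul K) (fun u hu ψ hψ => ?_) (fun v => mem_U hx v) (fun v => mem_Ul hx v)
  have h1 := b1 u hu φ j hj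
  have h2 := b2 ψ hψ v _ h1
  rwa [vm_mulVec, hφ, one_smul] at h2

end Cfsg.Agent.H801.Sims
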