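import Cfsg.Agent.H801.Sims.KJ

/-!
# Products of inner ideals
-/

set_option autoImplicit false
set_option linter.unusedVariables false

namespace Cfsg.Agent.H801.Sims

open Matrix

variable {F : Type*} [Field F] {n : ℕ} {K L J Q : Submodule F (Matrix (Fin n) (Fin n) F)}

theorem mm {A B C D : Submodule F (Matrix (Fin n) (Fin n) F)} (h : A ≤ B) (h' : C ≤ D) : A * C ≤ B * D :=
  Submodule.mul_le.2 fun _ hx _ hy => Submodule.mul_mem_mul (h hx) (h' hy)

theorem mml {A B C : Submodule F (Matrix (Fin n) (Fin n) F)} (h : A ≤ B) : A * C ≤ B * C := mm h le_rfl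

theorem mmr {A B C : Submodule F (Matrix (Fin n) (Fin n) F)} (h : A ≤ B) : C * A ≤ C * B := mm le_rfl h

/-- `M_n(F)` is simple -/
theorem top_mul_top (hJ : J ≠ ⊥) : (⊤ : Submodule F (Matrix (Fin n) (Fin n) F)) * J * ⊤ = ⊤ := by
  rw [eq_top_iff]
  obtain ⟨y, hy, hy0⟩ := J.ne_bot_iff.1 hJ
  obtain ⟨a, b, hab⟩ : ∃ a b, y a b ≠ 0 := by
    by_contra hcon
    push Not at hcon
    exact hy0 (by ext a b; exact hcon a b)
  intro x _
  refine mem_of_vm (P := ⊤) (Q := ⊤) (fun u _ φ _ => ?_) (fun _ => trivial) (fun _ => trivial)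
  have : vecMulVec u φ = vecMulVec u (Pi.single a 1) * y * vecMulVec (Pi.single b (y a b)⁻¹) φ := by
    rw [vecMulVec_mul, single_one_vecMul, vm_mul_vm, dotProduct_single]
    change vecMulVec u φ = (y a b * (y a b)⁻¹) • vecMulVec u φ
    rw [mul_inv_cancel₀ hab, one_smul]
  rw [this]
  exact Submodule.mul_mem_mul (Submodule.mul_mem_mul trivial hy) trivial

theorem le_mul_top (K : Submodule F (Matrix (Fin n) (Fin n) F)) : K ≤ K * ⊤ := fun x hx => by
  have := Submodule.mul_mem_mul hx (Submodule.mem_top (x := (1 : Matrix (Fin n) (Fin n) F)) (R := F))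
  rwa [mul_one] at this

theorem le_top_mul (K : Submodule F (Matrix (Fin n) (Fin n) F)) : K ≤ ⊤ * K := fun x hx => by
  have := Submodule.mul_mem_mul (Submodule.mem_top (x := (1 : Matrix (Fin n) (Fin n) F)) (R := F)) hx
  rwa [one_mul] at this

theorem Inn.le_KTK (hK : Inn K) : K ≤ K * ⊤ * K := by
  intro x hx
  refine mem_of_vm (P := U K) (Q := Ul K) (fun u hu φ hφ => ?_) (fun v => mem_U hx v) (fun v => mem_Ul hx v)
  induction hu using Submodule.span_induction with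
  | mem w hw =>
    obtain ⟨x, hx, z, rfl⟩ := hw
    induction hφ using Submodule.span_induction with
    | mem w' hw' =>
      obtain ⟨y, hy, z', rfl⟩ := hw'
      rw [← mul_vecMulVec, ← vecMulVec_mul, ← mul_assoc]
      exact Submodule.mul_mem_mul (Submodule.mul_mem_mul hx trivial) hy
    | zero => rw [vecMulVec_zero]; exact Submodule.zero_mem _
    | add a b _ _ ha hb => rw [vecMulVec_add]; exact Submodule.add_mem _ ha hb
    | smul c a _ ha => rw [vecMulVec_smul]; exact Submodule.smul_mem _ c ha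
  | zero => rw [zero_vecMulVec]; exact Submodule.zero_mem _
  | add a b _ _ ha hb => rw [add_vecMulVec]; exact Submodule.add_mem _ ha hb
  | smul c a _ ha => rw [smul_vecMulVec]; exact Submodule.smul_mem _ c ha

theorem Inn.KTK_le (hK : Inn K) : K * ⊤ * K ≤ K := by
  rw [Submodule.mul_le]
  intro x hx y hy
  induction hx using Submodule.mul_induction_on' with
  | mem_mul_mem a ha b hb => exact hK.inn a ha b y hy
  | add a _ b _ ha hb => rw [add_mul]; exact K.add_mem ha hb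

theorem Inn.mul_self (hK : Inn K) : K * K = ⊥ := by
  rw [eq_bot_iff, Submodule.mul_le]
  intro x hx y hy
  rw [hK.sq x hx y hy]
  exact Submodule.zero_mem _

theorem eq_of_card [Finite F] {A B : Submodule F (Matrix (Fin n) (Fin n) F)} (h : A ≤ B) (hc : Nat.card A = Nat.card B) :
    A = B := by
  apply SetLike.coe_injective
  have hfin : (B : Set (Matrix (Fin n) (Fin n) F)).Finite := Set.toFinite _
  refine Set.eq_of_subset_of_ncard_le h ?_ hfin
  exact le_of_eq hc.symm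

/-- if `L` lies in the normalizer algebra of `K` and the one-sided ideals have the same size, then `L K = K L = 0` -/
theorem mul_eq_bot [Finite F] (hK : Inn K) (hL : Inn L) (h1 : L * K ≤ K * ⊤) (h2 : K * L ≤ ⊤ * K)
    (c1 : Nat.card ↥(L * (⊤ : Submodule F (Matrix (Fin n) (Fin n) F))) = Nat.card ↥(K * (⊤ : Submodule F (Matrix (Fin n) (Fin n) F))))
    (c2 : Nat.card ↥((⊤ : Submodule F (Matrix (Fin n) (Fin n) F)) * L) = Nat.card ↥((⊤ : Submodule F (Matrix (Fin n) (Fin n) F)) * K)) :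
    L * K = ⊥ ∧ K * L = ⊥ := by
  have tt : ∀ A : Submodule F (Matrix (Fin n) (Fin n) F), A * ⊤ * ⊤ ≤ A * ⊤ := fun A => by
    rw [mul_assoc]; exact mmr le_top
  have tt' : ∀ A : Submodule F (Matrix (Fin n) (Fin n) F), ⊤ * (⊤ * A) ≤ ⊤ * A := fun A => by
    rw [← mul_assoc]; exact mml le_top
  constructor
  · by_contra hne
    have h3 := top_mul_top hne
    have h4 : L * ⊤ ≤ K * ⊤ := by
      calc L * ⊤ = L * (⊤ * (L * K) * ⊤) := by rw [h3]
        _ = (L * ⊤ * L) * (K * ⊤) := by simp only [mul_assoc]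
        _ ≤ L * (K * ⊤) := mml hL.KTK_le
        _ = (L * K) * ⊤ := by rw [mul_assoc]
        _ ≤ (K * ⊤) * ⊤ := mml h1
        _ ≤ K * ⊤ := tt K
    have h5 := eq_of_card h4 c1
    apply hne
    rw [eq_bot_iff]
    calc L * K ≤ L * (K * ⊤) := mmr (le_mul_top K)
      _ = (L * L) * ⊤ := by rw [← h5, mul_assoc]
      _ = ⊥ := by rw [hL.mul_self, Submodule.bot_mul]
      _ ≤ ⊥ := le_rfl
  · by_contra hne
    have h3 := top_mul_top hne
    have h4 : ⊤ * L ≤ ⊤ * K := by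
      calc ⊤ * L = (⊤ * (K * L) * ⊤) * L := by rw [h3]
        _ = (⊤ * K) * (L * ⊤ * L) := by simp only [mul_assoc]
        _ ≤ (⊤ * K) * L := mmr hL.KTK_le
        _ = ⊤ * (K * L) := by rw [mul_assoc]
        _ ≤ ⊤ * (⊤ * K) := mmr h2
        _ ≤ ⊤ * K := tt' K
    have h5 := eq_of_card h4 c2
    apply hne
    rw [eq_bot_iff]
    calc K * L ≤ (⊤ * K) * L := mml (le_top_mul K)
      _ = ⊤ * (L * L) := by rw [← h5, mul_assoc]
      _ = ⊥ := by rw [hL.mul_self, Submodule.mul_bot]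
      _ ≤ ⊥ := le_rfl

/-- `Q M Q` for a subspace `Q ≠ 0` with `Q² = 0` -/
theorem inn_QTQ (hQ : Q * Q = ⊥) (hK : Inn K) (hKQ : K ≤ Q) : Inn (Q * ⊤ * Q) ∧ K ≤ Q * ⊤ * Q := by
  have hle : K ≤ Q * ⊤ * Q := hK.le_KTK.trans (mm (mml hKQ) hKQ)
  refine ⟨⟨fun h => hK.ne (le_bot_iff.1 (h ▸ hle)), fun x hx y hy => ?_, fun x hx r y hy => ?_⟩, hle⟩
  · have h1 : x * y ∈ (Q * ⊤ * Q) * (Q * ⊤ * Q) := Submodule.mul_mem_mul hx hy
    have h2 : (Q * ⊤ * Q) * (Q * ⊤ * Q) = ⊥ := by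
      calc (Q * ⊤ * Q) * (Q * ⊤ * Q) = Q * ⊤ * (Q * Q) * (⊤ * Q) := by simp only [mul_assoc]
        _ = ⊥ := by rw [hQ, Submodule.mul_bot, Submodule.bot_mul]
    rw [h2] at h1
    exact h1
  · have h1 : x * r * y ∈ (Q * ⊤ * Q) * ⊤ * (Q * ⊤ * Q) := Submodule.mul_mem_mul (Submodule.mul_mem_mul hx trivial) hy
    refine (?_ : (Q * ⊤ * Q) * ⊤ * (Q * ⊤ * Q) ≤ Q * ⊤ * Q) h1
    calc (Q * ⊤ * Q) * ⊤ * (Q * ⊤ * Q) = Q * (⊤ * Q * ⊤ * Q * ⊤) * Q := by simp only [mul_assoc]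
      _ ≤ Q * ⊤ * Q := mml (mmr le_top)

end Cfsg.Agent.H801.Sims
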