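import Cfsg.Agent.H801.Sims.Inner

/-!
# Stabilizers of square-zero inner ideals: transvections, invariant subspaces, uniqueness
-/

set_option autoImplicit false
set_option linter.unusedVariables false

namespace Cfsg.Agent.H801.Sims

open Matrix

variable {F : Type*} [Field F] {n : ℕ} {K L J : Submodule F (Matrix (Fin n) (Fin n) F)}

/-- the normalizer of `K` in `SL_n(F)` -/
def St (K : Submodule F (Matrix (Fin n) (Fin n) F)) : Subgroup (Matrix.SpecialLinearGroup (Fin n) F) where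
  carrier := {s | ∀ x : Matrix (Fin n) (Fin n) F,
    (s : Matrix (Fin n) (Fin n) F) * x * ((s⁻¹ : Matrix.SpecialLinearGroup (Fin n) F) : Matrix (Fin n) (Fin n) F) ∈ K ↔ x ∈ K}
  mul_mem' := by
    intro s t hs ht x
    refine Iff.trans ?_ ((hs _).trans (ht x))
    rw [_root_.mul_inv_rev, Matrix.SpecialLinearGroup.coe_mul, Matrix.SpecialLinearGroup.coe_mul]
    simp only [mul_assoc]
  one_mem' := by
    intro x
    simp
  inv_mem' := by
    intro s hs x
    rw [← hs, inv_inv, ← mul_assoc, ← mul_assoc, ← Matrix.SpecialLinearGroup.coe_mul, mul_inv_cancel, mul_assoc,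
      ← Matrix.SpecialLinearGroup.coe_mul, mul_inv_cancel, Matrix.SpecialLinearGroup.coe_one, one_mul, mul_one]

theorem mem_St {s : Matrix.SpecialLinearGroup (Fin n) F} : s ∈ St K ↔ ∀ x : Matrix (Fin n) (Fin n) F,
    (s : Matrix (Fin n) (Fin n) F) * x * ((s⁻¹ : Matrix.SpecialLinearGroup (Fin n) F) : Matrix (Fin n) (Fin n) F) ∈ K ↔ x ∈ K :=
  Iff.rfl

theorem sl_mul_inv (s : Matrix.SpecialLinearGroup (Fin n) F) :
    (s : Matrix (Fin n) (Fin n) F) * ((s⁻¹ : Matrix.SpecialLinearGroup (Fin n) F) : Matrix (Fin n) (Fin n) F) = 1 := by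
  rw [← Matrix.SpecialLinearGroup.coe_mul, mul_inv_cancel, Matrix.SpecialLinearGroup.coe_one]

theorem sl_inv_mul (s : Matrix.SpecialLinearGroup (Fin n) F) :
    ((s⁻¹ : Matrix.SpecialLinearGroup (Fin n) F) : Matrix (Fin n) (Fin n) F) * (s : Matrix (Fin n) (Fin n) F) = 1 := by
  rw [← Matrix.SpecialLinearGroup.coe_mul, inv_mul_cancel, Matrix.SpecialLinearGroup.coe_one]

/-- it is enough that `s` and `s⁻¹` map `K` to `K` -/
theorem mem_St_of {s : Matrix.SpecialLinearGroup (Fin n) F}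
    (h1 : ∀ x ∈ K, (s : Matrix (Fin n) (Fin n) F) * x * ((s⁻¹ : Matrix.SpecialLinearGroup (Fin n) F) : Matrix (Fin n) (Fin n) F) ∈ K)
    (h2 : ∀ x ∈ K, ((s⁻¹ : Matrix.SpecialLinearGroup (Fin n) F) : Matrix (Fin n) (Fin n) F) * x * (s : Matrix (Fin n) (Fin n) F) ∈ K) :
    s ∈ St K := by
  intro x
  refine ⟨fun hx => ?_, h1 x⟩
  have := h2 _ hx
  rwa [← mul_assoc, ← mul_assoc, sl_inv_mul, one_mul, mul_assoc, sl_inv_mul, mul_one] at this

/-- transvections -/
def tv (u φ : Fin n → F) (h : φ ⬝ᵥ u = 0) : Matrix.SpecialLinearGroup (Fin n) F :=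
  ⟨1 + vecMulVec u φ, by
    rw [vecMulVec_eq Unit, det_one_add_replicateCol_mul_replicateRow, h, add_zero]⟩

theorem coe_tv (u φ : Fin n → F) (h : φ ⬝ᵥ u = 0) :
    ((tv u φ h : Matrix.SpecialLinearGroup (Fin n) F) : Matrix (Fin n) (Fin n) F) = 1 + vecMulVec u φ := rfl

theorem tv_inv (u φ : Fin n → F) (h : φ ⬝ᵥ u = 0) :
    (((tv u φ h)⁻¹ : Matrix.SpecialLinearGroup (Fin n) F) : Matrix (Fin n) (Fin n) F) = 1 - vecMulVec u φ := by
  have h1 : (tv u φ h)⁻¹ = tv (-u) φ (by rw [dotProduct_neg, h, neg_zero]) := by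
    apply inv_eq_of_mul_eq_one_right
    apply Subtype.ext
    rw [Matrix.SpecialLinearGroup.coe_mul, coe_tv, coe_tv, Matrix.SpecialLinearGroup.coe_one, neg_vecMulVec, mul_add,
      mul_one, add_mul, one_mul, mul_neg, vm_mul_vm, h, zero_smul]
    abel
  rw [h1, coe_tv, neg_vecMulVec, sub_eq_add_neg]

/-- a matrix of rank one and square zero normalizing `K` -/
theorem tv_mem_St {u φ : Fin n → F} (h : φ ⬝ᵥ u = 0)
    (h1 : ∀ x ∈ K, vecMulVec u φ * x ∈ K) (h2 : ∀ x ∈ K, x * vecMulVec u φ ∈ K) : tv u φ h ∈ St K := by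
  apply mem_St_of
  · intro x hx
    rw [tv_inv, coe_tv, add_mul, one_mul, mul_sub, mul_one]
    refine K.sub_mem (K.add_mem hx (h1 x hx)) ?_
    rw [add_mul]
    exact K.add_mem (h2 x hx) (h2 _ (h1 x hx))
  · intro x hx
    rw [tv_inv, coe_tv, sub_mul, one_mul, mul_add, mul_one]
    refine K.add_mem (K.sub_mem hx (h1 x hx)) ?_
    rw [sub_mul]
    exact K.sub_mem (h2 x hx) (h2 _ (h1 x hx))

namespace Inn

theorem Ul_vecMul (hK : Inn K) {ψ : Fin n → F} (hψ : ψ ∈ Ul K) {x : Matrix (Fin n) (Fin n) F} (hx : x ∈ K) :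
    ψ ᵥ* x = 0 := by
  induction hψ using Submodule.span_induction with
  | mem w hw =>
    obtain ⟨y, hy, z, rfl⟩ := hw
    rw [vecMul_vecMul, hK.sq y hy x hx, vecMul_zero]
  | zero => rw [zero_vecMul]
  | add a b _ _ ha hb => rw [add_vecMul, ha, hb, add_zero]
  | smul c a _ ha => rw [smul_vecMul, ha, smul_zero]

/-- first family: `u ∈ U K` -/
theorem tv_mem₁ (hK : Inn K) {u φ : Fin n → F} (h : φ ⬝ᵥ u = 0) (hu : u ∈ U K) : tv u φ h ∈ St K := by
  apply tv_mem_St h
  · intro x hx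
    rw [vecMulVec_mul]
    exact hK.vm_mem hu (mem_Ul hx _)
  · intro x hx
    rw [mul_vecMulVec, hK.U_le hu x hx, zero_vecMulVec]
    exact K.zero_mem

/-- second family: `ψ ∈ Ul K` -/
theorem tv_mem₂ (hK : Inn K) {v ψ : Fin n → F} (h : ψ ⬝ᵥ v = 0) (hψ : ψ ∈ Ul K) : tv v ψ h ∈ St K := by
  apply tv_mem_St h
  · intro x hx
    rw [vecMulVec_mul, hK.Ul_vecMul hψ hx, vecMulVec_zero]
    exact K.zero_mem
  · intro x hx
    rw [mul_vecMulVec]
    exact hK.vm_mem (mem_U hx _) hψ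

/-- third family: `v ∈ An K`, `φ` vanishes on `U K` -/
theorem tv_mem₃ (hK : Inn K) {v φ : Fin n → F} (h : φ ⬝ᵥ v = 0) (hv : v ∈ An K) (hφ : ∀ u ∈ U K, φ ⬝ᵥ u = 0) :
    tv v φ h ∈ St K := by
  apply tv_mem_St h
  · intro x hx
    have : φ ᵥ* x = 0 := by
      ext j
      have := hφ _ (mem_U hx (Pi.single j 1))
      rwa [dotProduct_mulVec, dotProduct_single_one] at this
    rw [vecMulVec_mul, this, vecMulVec_zero]
    exact K.zero_mem
  · intro x hx
    rw [mul_vecMulVec, hv x hx, zero_vecMulVec]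
    exact K.zero_mem

end Inn

/-- `M` is invariant under the subgroup `H` -/
def IsInv (H : Subgroup (Matrix.SpecialLinearGroup (Fin n) F)) (M : Submodule F (Fin n → F)) : Prop :=
  ∀ s ∈ H, ∀ m ∈ M, (s : Matrix (Fin n) (Fin n) F) *ᵥ m ∈ M

theorem step {P Q M : Submodule F (Fin n → F)} (hPM : P ≤ M) (hne : ¬ M ≤ P)
    (h : ∀ v ∈ Q, ∀ φ : Fin n → F, (∀ p ∈ P, φ ⬝ᵥ p = 0) → φ ⬝ᵥ v = 0 → ∀ m ∈ M, (φ ⬝ᵥ m) • v ∈ M) : Q ≤ M := by
  obtain ⟨m, hm, hmP⟩ := SetLike.not_le_iff_exists.1 hne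
  intro v hv
  by_cases hmv : m ∈ P ⊔ Submodule.span F {v}
  · obtain ⟨p, hp, w, hw, rfl⟩ := Submodule.mem_sup.1 hmv
    obtain ⟨c, rfl⟩ := Submodule.mem_span_singleton.1 hw
    have hc : c ≠ 0 := by
      rintro rfl
      rw [zero_smul, add_zero] at hmP
      exact hmP hp
    have : c • v ∈ M := by
      have := M.sub_mem hm (hPM hp)
      rwa [add_sub_cancel_left] at this
    exact (M.smul_mem_iff hc).1 this
  · obtain ⟨φ, h1, h2⟩ := exists_sep _ hmv
    have := h v hv φ (fun p hp => h1 p (Submodule.mem_sup_left hp))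
      (h1 v (Submodule.mem_sup_right (Submodule.mem_span_singleton_self v))) m hm
    rwa [h2, one_smul] at this

theorem Inn.step' (hK : Inn K) {M : Submodule F (Fin n → F)} (hM : IsInv (St K) M) {v φ : Fin n → F}
    (h : φ ⬝ᵥ v = 0) (hs : tv v φ h ∈ St K) {m : Fin n → F} (hm : m ∈ M) : (φ ⬝ᵥ m) • v ∈ M := by
  have := hM _ hs m hm
  rw [coe_tv, add_mulVec, one_mulVec, vm_mulVec] at this
  have := M.sub_mem this hm
  rwa [add_sub_cancel_left] at this

/-- the invariant subspaces of `St K` -/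
theorem Inn.inv_cases (hK : Inn K) {M : Submodule F (Fin n → F)} (hM : IsInv (St K) M) :
    M = ⊥ ∨ M = U K ∨ M = An K ∨ M = ⊤ := by
  by_cases h0 : M ≤ ⊥
  · exact Or.inl (le_bot_iff.1 h0)
  right
  have h1 : U K ≤ M := step bot_le h0 fun v hv φ _ hφv m hm => hK.step' hM hφv (hK.tv_mem₁ hφv hv) hm
  by_cases h2 : M ≤ U K
  · exact Or.inl (le_antisymm h2 h1)
  right
  have h3 : An K ≤ M := step h1 h2 fun v hv φ hφ hφv m hm => hK.step' hM hφv (hK.tv_mem₃ hφv hv hφ) hm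
  by_cases h4 : M ≤ An K
  · exact Or.inl (le_antisymm h4 h3)
  right
  have h5 : ⊤ ≤ M := step h3 h4 fun v _ φ hφ hφv m hm => hK.step' hM hφv (hK.tv_mem₂ hφv (mem_Ul_of hφ)) hm
  exact le_antisymm le_top h5

theorem Inn.U_ne_bot (hK : Inn K) : U K ≠ ⊥ := by
  intro h
  obtain ⟨x, hx, hx0⟩ := K.ne_bot_iff.1 hK.ne
  apply hx0
  apply Matrix.toLin'.injective
  ext1 j
  apply LinearMap.ext
  intro c
  have : x *ᵥ (LinearMap.single F (fun _ => F) j c) ∈ U K := mem_U hx _
  rw [h, Submodule.mem_bot] at this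
  simpa using this

theorem Inn.An_ne_top (hK : Inn K) : An K ≠ ⊤ := by
  intro h
  apply hK.U_ne_bot
  rw [U, Submodule.span_eq_bot]
  rintro _ ⟨x, hx, v, rfl⟩
  have : v ∈ An K := by rw [h]; trivial
  exact this x hx

theorem inv_U : IsInv (St K) (U K) := by
  intro s hs m hm
  induction hm using Submodule.span_induction with
  | mem w hw =>
    obtain ⟨x, hx, v, rfl⟩ := hw
    have h1 : (s : Matrix (Fin n) (Fin n) F) *ᵥ (x *ᵥ v) = ((s : Matrix (Fin n) (Fin n) F) * x *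
        ((s⁻¹ : Matrix.SpecialLinearGroup (Fin n) F) : Matrix (Fin n) (Fin n) F)) *ᵥ ((s : Matrix (Fin n) (Fin n) F) *ᵥ v) := by
      rw [mulVec_mulVec, mulVec_mulVec, mul_assoc _ _ (s : Matrix (Fin n) (Fin n) F), sl_inv_mul, mul_one]
    rw [h1]
    exact mem_U ((hs x).2 hx) _
  | zero => rw [mulVec_zero]; exact (U K).zero_mem
  | add a b _ _ ha hb => rw [mulVec_add]; exact (U K).add_mem ha hb
  | smul c a _ ha => rw [mulVec_smul]; exact (U K).smul_mem c ha

theorem inv_An : IsInv (St K) (An K) := by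
  intro s hs m hm x hx
  have h1 := ((St K).inv_mem hs x).2 hx
  rw [inv_inv] at h1
  have h2 : x *ᵥ ((s : Matrix (Fin n) (Fin n) F) *ᵥ m) = (s : Matrix (Fin n) (Fin n) F) *ᵥ
      ((((s⁻¹ : Matrix.SpecialLinearGroup (Fin n) F) : Matrix (Fin n) (Fin n) F) * x * (s : Matrix (Fin n) (Fin n) F)) *ᵥ m) := by
    rw [mulVec_mulVec, mulVec_mulVec, ← mul_assoc, ← mul_assoc, sl_mul_inv, one_mul]
  rw [h2, hm _ h1, mulVec_zero]

/-- a square-zero inner ideal is determined by its stabilizer -/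
theorem Inn.uniq (hK : Inn K) (hL : Inn L) (h : St K = St L) : K = L := by
  have a1 := hK.inv_cases (M := U L) (by rw [h]; exact inv_U)
  have a2 := hK.inv_cases (M := An L) (by rw [h]; exact inv_An)
  have b1 := hL.inv_cases (M := U K) (by rw [← h]; exact inv_U)
  have b2 := hL.inv_cases (M := An K) (by rw [← h]; exact inv_An)
  have k1 := hK.U_ne_bot
  have k2 := hK.An_ne_top
  have l1 := hL.U_ne_bot
  have l2 := hL.An_ne_top
  have kk := hK.U_le
  have ll := hL.U_le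
  have k3 : U K ≠ ⊤ := fun e => k2 (top_le_iff.1 (e ▸ kk))
  have l3 : U L ≠ ⊤ := fun e => l2 (top_le_iff.1 (e ▸ ll))
  have k4 : An K ≠ ⊥ := fun e => k1 (le_bot_iff.1 (e ▸ kk))
  have l4 : An L ≠ ⊥ := fun e => l1 (le_bot_iff.1 (e ▸ ll))
  have a1' : U L = U K ∨ U L = An K := by rcases a1 with h | h | h | h <;> [exact absurd h l1; exact Or.inl h; exact Or.inr h; exact absurd h l3]
  have a2' : An L = U K ∨ An L = An K := by rcases a2 with h | h | h | h <;> [exact absurd h l4; exact Or.inl h; exact Or.inr h; exact absurd h l2]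
  have b1' : U K = U L ∨ U K = An L := by rcases b1 with h | h | h | h <;> [exact absurd h k1; exact Or.inl h; exact Or.inr h; exact absurd h k3]
  have b2' : An K = U L ∨ An K = An L := by rcases b2 with h | h | h | h <;> [exact absurd h k4; exact Or.inl h; exact Or.inr h; exact absurd h k2]
  apply hK.eq_of hL
  · apply le_antisymm
    · rcases a1' with e | e
      · exact e.ge
      · rw [e]; exact kk
    · rcases b1' with e | e
      · exact e.ge
      · rw [e]; exact ll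
  · apply le_antisymm
    · rcases a2' with e | e
      · rcases b2' with e' | e'
        · rw [e']; exact ll
        · exact e'.le
      · exact e.ge
    · rcases b2' with e | e
      · rcases a2' with e' | e'
        · rw [e']; exact kk
        · exact e'.le
      · exact e.ge

end Cfsg.Agent.H801.Sims
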