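import Cfsg.Agent.H801.Sims.Prod
import Cfsg.Agent.H607.TW.Basic

/-!
# Semilinear automorphisms and antiautomorphisms of `M_n(F)` acting on inner ideals
-/

set_option autoImplicit false
set_option linter.unusedVariables false

namespace Cfsg.Agent.H801.Sims

open Matrix Cfsg.Agent.H607.TW

variable {F : Type} [Field F] {n : ℕ} {K L J Q : Submodule F (Matrix (Fin n) (Fin n) F)}
  {τ τ' : Matrix (Fin n) (Fin n) F ≃+ Matrix (Fin n) (Fin n) F}

def IsMul (τ : Matrix (Fin n) (Fin n) F ≃+ Matrix (Fin n) (Fin n) F) : Prop := ∀ x y, τ (x * y) = τ x * τ y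

def IsAnti (τ : Matrix (Fin n) (Fin n) F ≃+ Matrix (Fin n) (Fin n) F) : Prop := ∀ x y, τ (x * y) = τ y * τ x

/-- semilinear, multiplicative or antimultiplicative -/
structure Semi (τ : Matrix (Fin n) (Fin n) F ≃+ Matrix (Fin n) (Fin n) F) : Prop where
  smul : ∃ σ : F ≃+* F, ∀ (c : F) (x : Matrix (Fin n) (Fin n) F), τ (c • x) = σ c • τ x
  mul : IsMul τ ∨ IsAnti τ

theorem Semi.one (h : Semi τ) : τ 1 = 1 := by
  rcases h.mul with h1 | h1
  · obtain ⟨y, hy⟩ := τ.surjective 1
    have := h1 1 y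
    rw [one_mul, hy, mul_one] at this
    exact this.symm
  · obtain ⟨y, hy⟩ := τ.surjective 1
    have := h1 y 1
    rw [mul_one, hy, mul_one] at this
    exact this.symm

theorem tauP_mul (B : Matrix.GeneralLinearGroup (Fin n) F) (σ : F ≃+* F) : IsMul (tauP B σ) := by
  intro x y
  rw [tauP_apply, tauP_apply, tauP_apply]
  have h1 : ((B⁻¹ : Matrix.GeneralLinearGroup (Fin n) F) : Matrix (Fin n) (Fin n) F) * (B : Matrix (Fin n) (Fin n) F) = 1 := by
    rw [← Units.val_mul, inv_mul_cancel, Units.val_one]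
  have h2 : (x * y).map σ = x.map σ * y.map σ := by
    ext i j
    simp [Matrix.mul_apply]
  rw [h2]
  calc _ = (B : Matrix (Fin n) (Fin n) F) * x.map σ * 1 * y.map σ *
      ((B⁻¹ : Matrix.GeneralLinearGroup (Fin n) F) : Matrix (Fin n) (Fin n) F) := by simp only [mul_assoc, mul_one, one_mul]
    _ = _ := by rw [← h1]; simp only [mul_assoc]

theorem tauP_smul (B : Matrix.GeneralLinearGroup (Fin n) F) (σ : F ≃+* F) (c : F) (x : Matrix (Fin n) (Fin n) F) :
    tauP B σ (c • x) = σ c • tauP B σ x := by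
  rw [tauP_apply, tauP_apply]
  have h2 : (c • x).map σ = σ c • x.map σ := by
    ext i j
    simp
  rw [h2, mul_smul_comm, smul_mul_assoc]

theorem tauP_semi (B : Matrix.GeneralLinearGroup (Fin n) F) (σ : F ≃+* F) : Semi (tauP B σ) :=
  ⟨⟨σ, tauP_smul B σ⟩, Or.inl (tauP_mul B σ)⟩

theorem tauM_eq (B : Matrix.GeneralLinearGroup (Fin n) F) (σ : F ≃+* F) (x : Matrix (Fin n) (Fin n) F) :
    tauM B σ x = tauP B σ xᵀ := rfl

theorem tauM_anti (B : Matrix.GeneralLinearGroup (Fin n) F) (σ : F ≃+* F) : IsAnti (tauM B σ) := by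
  intro x y
  rw [tauM_eq, tauM_eq, tauM_eq, transpose_mul, tauP_mul]

theorem tauM_semi (B : Matrix.GeneralLinearGroup (Fin n) F) (σ : F ≃+* F) : Semi (tauM B σ) := by
  refine ⟨⟨σ, fun c x => ?_⟩, Or.inr (tauM_anti B σ)⟩
  rw [tauM_eq, tauM_eq, transpose_smul, tauP_smul]

/-- the image of a subspace -/
def img (τ : Matrix (Fin n) (Fin n) F ≃+ Matrix (Fin n) (Fin n) F) (K : Submodule F (Matrix (Fin n) (Fin n) F)) :
    Submodule F (Matrix (Fin n) (Fin n) F) := Submodule.span F (τ '' K)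

theorem mem_img (h : Semi τ) {x : Matrix (Fin n) (Fin n) F} : x ∈ img τ K ↔ ∃ y ∈ K, τ y = x := by
  constructor
  · intro hx
    obtain ⟨σ, hσ⟩ := h.smul
    induction hx using Submodule.span_induction with
    | mem w hw => obtain ⟨y, hy, rfl⟩ := hw; exact ⟨y, hy, rfl⟩
    | zero => exact ⟨0, K.zero_mem, map_zero τ⟩
    | add a b _ _ ha hb =>
      obtain ⟨y, hy, rfl⟩ := ha
      obtain ⟨z, hz, rfl⟩ := hb
      exact ⟨y + z, K.add_mem hy hz, map_add τ y z⟩
    | smul c a _ ha =>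
      obtain ⟨y, hy, rfl⟩ := ha
      exact ⟨σ.symm c • y, K.smul_mem _ hy, by rw [hσ, RingEquiv.apply_symm_apply]⟩
  · rintro ⟨y, hy, rfl⟩
    exact Submodule.subset_span ⟨y, hy, rfl⟩

theorem mem_img' (h : Semi τ) {x : Matrix (Fin n) (Fin n) F} : τ x ∈ img τ K ↔ x ∈ K := by
  rw [mem_img h]
  constructor
  · rintro ⟨y, hy, hyx⟩
    rwa [τ.injective hyx] at hy
  · exact fun hx => ⟨x, hx, rfl⟩

theorem img_mono (h : K ≤ L) : img τ K ≤ img τ L := Submodule.span_mono (Set.image_mono h)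

theorem card_img (h : Semi τ) : Nat.card ↥(img τ K) = Nat.card ↥K := by
  have h1 : ((img τ K : Submodule F _) : Set (Matrix (Fin n) (Fin n) F)) = τ '' K := by
    ext x
    rw [SetLike.mem_coe, mem_img h]
    rfl
  have h2 := Nat.card_image_of_injective τ.injective (K : Set (Matrix (Fin n) (Fin n) F))
  rw [← h1] at h2
  exact h2

theorem img_ne_bot (h : Semi τ) (hK : K ≠ ⊥) : img τ K ≠ ⊥ := by
  obtain ⟨x, hx, hx0⟩ := K.ne_bot_iff.1 hK
  rw [Submodule.ne_bot_iff]
  exact ⟨τ x, (mem_img' h).2 hx, fun h0 => hx0 (τ.injective (by rw [h0, map_zero]))⟩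

theorem img_top (h : Semi τ) : img τ (⊤ : Submodule F (Matrix (Fin n) (Fin n) F)) = ⊤ := by
  rw [eq_top_iff]
  intro x _
  rw [mem_img h]
  exact ⟨τ.symm x, trivial, τ.apply_symm_apply x⟩

theorem img_mul (h : Semi τ) (hm : IsMul τ) : img τ (K * L) = img τ K * img τ L := by
  apply le_antisymm
  · intro x hx
    obtain ⟨y, hy, rfl⟩ := (mem_img h).1 hx
    induction hy using Submodule.mul_induction_on' with
    | mem_mul_mem a ha b hb =>
      rw [hm]
      exact Submodule.mul_mem_mul ((mem_img' h).2 ha) ((mem_img' h).2 hb)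
    | add a ha' b hb' ha hb =>
      rw [map_add]
      exact Submodule.add_mem _ (ha ((mem_img' h).2 ha')) (hb ((mem_img' h).2 hb'))
  · rw [Submodule.mul_le]
    intro x hx y hy
    obtain ⟨a, ha, rfl⟩ := (mem_img h).1 hx
    obtain ⟨b, hb, rfl⟩ := (mem_img h).1 hy
    rw [← hm, mem_img' h]
    exact Submodule.mul_mem_mul ha hb

theorem img_mul' (h : Semi τ) (hm : IsAnti τ) : img τ (K * L) = img τ L * img τ K := by
  apply le_antisymm
  · intro x hx
    obtain ⟨y, hy, rfl⟩ := (mem_img h).1 hx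
    induction hy using Submodule.mul_induction_on' with
    | mem_mul_mem a ha b hb =>
      rw [hm]
      exact Submodule.mul_mem_mul ((mem_img' h).2 hb) ((mem_img' h).2 ha)
    | add a ha' b hb' ha hb =>
      rw [map_add]
      exact Submodule.add_mem _ (ha ((mem_img' h).2 ha')) (hb ((mem_img' h).2 hb'))
  · rw [Submodule.mul_le]
    intro x hx y hy
    obtain ⟨a, ha, rfl⟩ := (mem_img h).1 hx
    obtain ⟨b, hb, rfl⟩ := (mem_img h).1 hy
    rw [← hm, mem_img' h]
    exact Submodule.mul_mem_mul hb ha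

theorem img_inn (h : Semi τ) (hK : Inn K) : Inn (img τ K) := by
  refine ⟨img_ne_bot h hK.ne, fun x hx y hy => ?_, fun x hx r y hy => ?_⟩
  · obtain ⟨a, ha, rfl⟩ := (mem_img h).1 hx
    obtain ⟨b, hb, rfl⟩ := (mem_img h).1 hy
    rcases h.mul with hm | hm
    · rw [← hm, hK.sq a ha b hb, map_zero]
    · rw [← hm, hK.sq b hb a ha, map_zero]
  · obtain ⟨a, ha, rfl⟩ := (mem_img h).1 hx
    obtain ⟨b, hb, rfl⟩ := (mem_img h).1 hy
    obtain ⟨s, rfl⟩ := τ.surjective r
    rcases h.mul with hm | hm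
    · rw [← hm, ← hm, mem_img' h]
      exact hK.inn a ha s b hb
    · rw [← hm, ← hm, mem_img' h, ← mul_assoc]
      exact hK.inn b hb s a ha

theorem mem_rann' {x : Matrix (Fin n) (Fin n) F} : x ∈ rann J ↔ ∀ y ∈ J, y * x = 0 := Iff.rfl
theorem mem_lann' {x : Matrix (Fin n) (Fin n) F} : x ∈ lann J ↔ ∀ y ∈ J, x * y = 0 := Iff.rfl

theorem img_rann (h : Semi τ) (hm : IsMul τ) : img τ (rann J) = rann (img τ J) := by
  ext x
  obtain ⟨x, rfl⟩ := τ.surjective x
  rw [mem_img' h, mem_rann', mem_rann']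
  constructor
  · intro hx y hy
    obtain ⟨b, hb, rfl⟩ := (mem_img h).1 hy
    rw [← hm, hx b hb, map_zero]
  · intro hx y hy
    have := hx (τ y) ((mem_img' h).2 hy)
    rw [← hm] at this
    exact τ.injective (by rw [this, map_zero])

theorem img_lann (h : Semi τ) (hm : IsMul τ) : img τ (lann J) = lann (img τ J) := by
  ext x
  obtain ⟨x, rfl⟩ := τ.surjective x
  rw [mem_img' h, mem_lann', mem_lann']
  constructor
  · intro hx y hy
    obtain ⟨b, hb, rfl⟩ := (mem_img h).1 hy
    rw [← hm, hx b hb, map_zero]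
  · intro hx y hy
    have := hx (τ y) ((mem_img' h).2 hy)
    rw [← hm] at this
    exact τ.injective (by rw [this, map_zero])

theorem img_rann' (h : Semi τ) (hm : IsAnti τ) : img τ (rann J) = lann (img τ J) := by
  ext x
  obtain ⟨x, rfl⟩ := τ.surjective x
  rw [mem_img' h, mem_rann', mem_lann']
  constructor
  · intro hx y hy
    obtain ⟨b, hb, rfl⟩ := (mem_img h).1 hy
    rw [← hm, hx b hb, map_zero]
  · intro hx y hy
    have := hx (τ y) ((mem_img' h).2 hy)
    rw [← hm] at this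
    exact τ.injective (by rw [this, map_zero])

theorem img_lann' (h : Semi τ) (hm : IsAnti τ) : img τ (lann J) = rann (img τ J) := by
  ext x
  obtain ⟨x, rfl⟩ := τ.surjective x
  rw [mem_img' h, mem_lann', mem_rann']
  constructor
  · intro hx y hy
    obtain ⟨b, hb, rfl⟩ := (mem_img h).1 hy
    rw [← hm, hx b hb, map_zero]
  · intro hx y hy
    have := hx (τ y) ((mem_img' h).2 hy)
    rw [← hm] at this
    exact τ.injective (by rw [this, map_zero])

theorem img_inf (h : Semi τ) : img τ (K ⊓ L) = img τ K ⊓ img τ L := by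
  ext x
  obtain ⟨x, rfl⟩ := τ.surjective x
  rw [mem_img' h, Submodule.mem_inf, Submodule.mem_inf, mem_img' h, mem_img' h]

theorem img_KK (h : Semi τ) : img τ (KK J) = KK (img τ J) := by
  rw [KK, KK, img_inf h, img_inf h, img_inf h]
  rcases h.mul with hm | hm
  · rw [img_mul h hm, img_mul h hm, img_top h, img_rann h hm, img_lann h hm]
  · rw [img_mul' h hm, img_mul' h hm, img_top h, img_rann' h hm, img_lann' h hm]
    ac_rfl

theorem img_K1 (h : Semi τ) (hm : IsMul τ) : img τ (K1 J) = K1 (img τ J) := by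
  rw [K1, K1, img_inf h, img_mul h hm, img_top h, img_rann h hm]

theorem img_K2 (h : Semi τ) (hm : IsMul τ) : img τ (K2 J) = K2 (img τ J) := by
  rw [K2, K2, img_inf h, img_mul h hm, img_top h, img_lann h hm]

theorem img_span (h : Semi τ) (s : Set (Matrix (Fin n) (Fin n) F)) :
    img τ (Submodule.span F s) = Submodule.span F (τ '' s) := by
  apply le_antisymm
  · intro x hx
    obtain ⟨y, hy, rfl⟩ := (mem_img h).1 hx
    clear hx
    obtain ⟨σ, hσ⟩ := h.smul
    induction hy using Submodule.span_induction with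
    | mem w hw => exact Submodule.subset_span ⟨w, hw, rfl⟩
    | zero => rw [map_zero]; exact Submodule.zero_mem _
    | add a b _ _ ha hb => rw [map_add]; exact Submodule.add_mem _ ha hb
    | smul c a _ ha => rw [hσ]; exact Submodule.smul_mem _ _ ha
  · exact Submodule.span_mono (Set.image_mono Submodule.subset_span)

theorem Semi.symm (h : Semi τ) : Semi τ.symm := by
  obtain ⟨⟨σ, hσ⟩, hm⟩ := h
  refine ⟨⟨σ.symm, fun c x => ?_⟩, ?_⟩
  · apply τ.injective
    rw [hσ, AddEquiv.apply_symm_apply, AddEquiv.apply_symm_apply, RingEquiv.apply_symm_apply]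
  · rcases hm with hm | hm
    · left
      intro x y
      apply τ.injective
      rw [hm, AddEquiv.apply_symm_apply, AddEquiv.apply_symm_apply, AddEquiv.apply_symm_apply]
    · right
      intro x y
      apply τ.injective
      rw [hm, AddEquiv.apply_symm_apply, AddEquiv.apply_symm_apply, AddEquiv.apply_symm_apply]

theorem Semi.trans (h : Semi τ) (h' : Semi τ') : Semi (τ.trans τ') := by
  obtain ⟨⟨σ, hσ⟩, hm⟩ := h
  obtain ⟨⟨σ', hσ'⟩, hm'⟩ := h'
  refine ⟨⟨σ.trans σ', fun c x => ?_⟩, ?_⟩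
  · rw [AddEquiv.trans_apply, AddEquiv.trans_apply, hσ, hσ', RingEquiv.trans_apply]
  · rcases hm with hm | hm <;> rcases hm' with hm' | hm'
    · left; intro x y
      rw [AddEquiv.trans_apply, AddEquiv.trans_apply, AddEquiv.trans_apply, hm, hm']
    · right; intro x y
      rw [AddEquiv.trans_apply, AddEquiv.trans_apply, AddEquiv.trans_apply, hm, hm']
    · right; intro x y
      rw [AddEquiv.trans_apply, AddEquiv.trans_apply, AddEquiv.trans_apply, hm, hm']
    · left; intro x y
      rw [AddEquiv.trans_apply, AddEquiv.trans_apply, AddEquiv.trans_apply, hm, hm']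

end Cfsg.Agent.H801.Sims
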